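import Cfsg.Agent.H50.CD2
import Mathlib.GroupTheory.Nilpotent

/-!
A minimal centrally large subgroup normalized by `J(P)` and by all the others (S3008 (2)).  (helper50)
-/

set_option autoImplicit false

namespace Cfsg.Agent.H50.CD

open scoped Pointwise commutatorElement
open Subgroup

variable {P : Type*} [Group P] [Finite P]

omit [Finite P] in
theorem centralizer_map_conj (R : Subgroup P) (g : P) :
    centralizer ((R.map (MulAut.conj g).toMonoidHom : Subgroup P) : Set P) =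
      (centralizer (R : Set P)).map (MulAut.conj g).toMonoidHom := by
  ext x
  rw [mem_map_conj, mem_centralizer_iff, mem_centralizer_iff]
  constructor
  · intro h y hy
    have := h _ (conj_mem_map_conj (g := g) hy)
    have h2 : g⁻¹ * (g * y * g⁻¹ * x) * g = g⁻¹ * (x * (g * y * g⁻¹)) * g := by rw [this]
    simpa [mul_assoc] using h2
  · rintro h _ ⟨y, hy, rfl⟩
    have := h y hy
    have h2 : g * (y * (g⁻¹ * x * g)) * g⁻¹ = g * (g⁻¹ * x * g * y) * g⁻¹ := by rw [this]
    simpa [mul_assoc, MulAut.conj_apply] using h2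

theorem large_map_conj {R : Subgroup P} (hR : IsCentralizerLarge R) (g : P) :
    IsCentralizerLarge (R.map (MulAut.conj g).toMonoidHom) := by
  rw [isCentralizerLarge_iff] at hR ⊢
  intro R'
  rw [centralizer_map_conj, card_map_conj, card_map_conj]
  exact hR R'

/-- `V = ⟨Z^a : a ∈ A⟩`. -/
def conjJoin (Z A : Subgroup P) : Subgroup P :=
  ⨆ a : A, Z.map (MulAut.conj (a : P)).toMonoidHom

omit [Finite P] in
theorem le_conjJoin (Z A : Subgroup P) : Z ≤ conjJoin Z A := by
  have h := le_iSup (fun a : A => Z.map (MulAut.conj (a : P)).toMonoidHom) 1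
  have h1 : Z.map (MulAut.conj (((1 : A) : P))).toMonoidHom = Z := by
    rw [OneMemClass.coe_one, map_conj_one]
  have h2 : Z.map (MulAut.conj (((1 : A) : P))).toMonoidHom ≤ conjJoin Z A := h
  rwa [h1] at h2

omit [Finite P] in
theorem conjJoin_le_sup (Z A : Subgroup P) : conjJoin Z A ≤ Z ⊔ A := by
  apply iSup_le
  rintro ⟨a, ha⟩ x hx
  rw [mem_map_conj] at hx
  have ha' : a ∈ Z ⊔ A := (le_sup_right : A ≤ Z ⊔ A) ha
  have h1 : a⁻¹ * x * a ∈ Z ⊔ A := (le_sup_left : Z ≤ Z ⊔ A) hx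
  have h2 := (Z ⊔ A).mul_mem ((Z ⊔ A).mul_mem ha' h1) ((Z ⊔ A).inv_mem ha')
  simpa [mul_assoc] using h2

omit [Finite P] in
theorem conjJoin_inv (Z A : Subgroup P) {a : P} (ha : a ∈ A) {x : P} (hx : x ∈ conjJoin Z A) :
    a * x * a⁻¹ ∈ conjJoin Z A := by
  have h1 : (conjJoin Z A).map (MulAut.conj a).toMonoidHom ≤ conjJoin Z A := by
    unfold conjJoin
    rw [Subgroup.map_iSup]
    apply iSup_le
    intro b
    rw [← map_conj_mul]
    exact le_iSup (fun a : A => Z.map (MulAut.conj (a : P)).toMonoidHom) ⟨a * b, A.mul_mem ha b.2⟩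
  exact h1 (conj_mem_map_conj hx)

omit [Finite P] in
theorem mem_centralizer_conjJoin {Z A : Subgroup P} {x : P}
    (h : ∀ a ∈ A, a * x * a⁻¹ ∈ centralizer (Z : Set P)) :
    x ∈ centralizer ((conjJoin Z A : Subgroup P) : Set P) := by
  have h1 : conjJoin Z A ≤ centralizer ({x} : Set P) := by
    apply iSup_le
    rintro ⟨a, ha⟩ y hy
    rw [mem_map_conj] at hy
    have h2 := h a⁻¹ (A.inv_mem ha)
    rw [inv_inv] at h2
    have h3 := mem_centralizer_iff.1 h2 _ hy
    rw [mem_centralizer_singleton_iff]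
    have h4 : a * (a⁻¹ * y * a * (a⁻¹ * x * a)) * a⁻¹ = a * (a⁻¹ * x * a * (a⁻¹ * y * a)) * a⁻¹ := by
      rw [h3]
    simpa [mul_assoc] using h4
  rw [mem_centralizer_iff]
  intro y hy
  exact mem_centralizer_singleton_iff.1 (h1 hy)

theorem conjJoin_large {Z : Subgroup P} (hZ : IsCentralizerLarge Z) (A : Subgroup P) :
    IsCentralizerLarge (conjJoin Z A) := by
  apply large_sSup (Set.range_nonempty _)
  rintro _ ⟨a, rfl⟩
  exact large_map_conj hZ _

omit [Finite P] in
theorem centralizer_inv {V A : Subgroup P} (hV : ∀ a ∈ A, ∀ x ∈ V, a * x * a⁻¹ ∈ V) {a : P} (ha : a ∈ A)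
    {x : P} (hx : x ∈ centralizer (V : Set P)) : a * x * a⁻¹ ∈ centralizer (V : Set P) := by
  rw [mem_centralizer_iff] at hx ⊢
  intro v hv
  have h1 := hV a⁻¹ (A.inv_mem ha) v hv
  rw [inv_inv] at h1
  have h2 := hx _ h1
  have h3 : a * (a⁻¹ * v * a * x) * a⁻¹ = a * (x * (a⁻¹ * v * a)) * a⁻¹ := by rw [h2]
  simpa [mul_assoc] using h3

/-- The set-up: `Q` minimal centrally large, `A` abelian with `Z(Q) A = A Z(Q)`. -/
theorem setup {Q A : Subgroup P} (hQ : IsMinimalCentrallyLarge Q)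
    (hA : A ≤ centralizer (A : Set P))
    (hZA : ((centralizer (Q : Set P) ⊔ A : Subgroup P) : Set P) =
      (centralizer (Q : Set P) : Set P) * (A : Set P)) :
    ∃ D V : Subgroup P, D = centralizer (V : Set P) ∧ V = centralizer (D : Set P) ∧
      centralizer (Q : Set P) ≤ V ∧ D ≤ Q ∧
      (∀ a ∈ A, ∀ x ∈ V, a * x * a⁻¹ ∈ V) ∧ (∀ a ∈ A, ∀ x ∈ D, a * x * a⁻¹ ∈ D) ∧
      (∀ x, (∀ a ∈ A, a * x * a⁻¹ ∈ Q) → x ∈ D) ∧
      (V : Set P) = (centralizer (Q : Set P) : Set P) * ((V ⊓ A : Subgroup P) : Set P) ∧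
      (Q : Set P) = (D : Set P) * (centralizer (Q : Set P) : Set P) ∧
      ((D ⊔ V : Subgroup P) : Set P) = (D : Set P) * (V : Set P) ∧
      IsMinimalCentrallyLarge (D ⊔ (V ⊓ A)) := by
  obtain ⟨hQl, hQc⟩ := (cl_iff Q).1 hQ.1
  obtain ⟨hZl, hQZ⟩ := cd_centralizer hQl
  set Z := centralizer (Q : Set P) with hZdef
  set V := conjJoin Z A with hVdef
  have hVl : IsCentralizerLarge V := conjJoin_large hZl A
  obtain ⟨hDl, hVD⟩ := cd_centralizer hVl
  set D := centralizer (V : Set P) with hDdef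
  have hZV : Z ≤ V := le_conjJoin Z A
  have hDQ : D ≤ Q := by
    rw [hQZ]
    exact centralizer_le hZV
  have hVinv : ∀ a ∈ A, ∀ x ∈ V, a * x * a⁻¹ ∈ V := fun a ha x hx => conjJoin_inv Z A ha hx
  have hDinv : ∀ a ∈ A, ∀ x ∈ D, a * x * a⁻¹ ∈ D := fun a ha x hx => centralizer_inv hVinv ha hx
  have hDmem : ∀ x, (∀ a ∈ A, a * x * a⁻¹ ∈ Q) → x ∈ D := by
    intro x hx
    apply mem_centralizer_conjJoin
    intro a ha
    rw [← hQZ]
    exact hx a ha
  have hQAD : Q ⊓ A ≤ D := by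
    rintro x ⟨hx1, hx2⟩
    apply hDmem
    intro a ha
    have : x * a = a * x := mem_centralizer_iff.1 (hA ha) x hx2
    rw [← this, mul_assoc, mul_inv_cancel, mul_one]
    exact hx1
  have hVset : (V : Set P) = (Z : Set P) * ((V ⊓ A : Subgroup P) : Set P) := by
    apply Set.Subset.antisymm
    · intro v hv
      have h1 : v ∈ ((Z ⊔ A : Subgroup P) : Set P) := conjJoin_le_sup Z A hv
      rw [hZA] at h1
      obtain ⟨z, hz, a, ha, rfl⟩ := h1
      refine ⟨z, hz, a, ⟨?_, ha⟩, rfl⟩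
      have := V.mul_mem (V.inv_mem (hZV hz)) hv
      simpa using this
    · rintro _ ⟨z, hz, a, ha, rfl⟩
      exact V.mul_mem (hZV hz) ha.1
  have hcdDZ := cd hDl hZl
  have hDZcl : IsCentrallyLarge (D ⊔ Z) := by
    rw [cl_iff]
    refine ⟨hcdDZ.2.1, ?_⟩
    rw [centralizer_sup, ← hVD, ← hQZ]
    rintro x ⟨hx1, hx2⟩
    have hx1' : x ∈ (Z : Set P) * ((V ⊓ A : Subgroup P) : Set P) := by rw [← hVset]; exact hx1
    obtain ⟨z, hz, a, ha, rfl⟩ := hx1'
    have haQ : a ∈ Q := by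
      have := Q.mul_mem (Q.inv_mem (hQc hz)) hx2
      simpa using this
    exact Subgroup.mul_mem _ ((le_sup_right : Z ≤ D ⊔ Z) hz)
      ((le_sup_left : D ≤ D ⊔ Z) (hQAD ⟨haQ, ha.2⟩))
  have hDZQ : D ⊔ Z = Q := hQ.2 _ (sup_le hDQ hQc) hDZcl
  have hQset : (Q : Set P) = (D : Set P) * (Z : Set P) := by
    conv_lhs => rw [← hDZQ]
    exact hcdDZ.1
  have hDVset : ((D ⊔ V : Subgroup P) : Set P) = (D : Set P) * (V : Set P) := (cd hDl hVl).1
  -- the counting
  set E := V ⊓ A with hE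
  have hDV : D ⊓ V = D ⊓ Z := by
    apply le_antisymm
    · refine le_inf inf_le_left ?_
      rw [hZdef]
      conv_rhs => rw [← hDZQ]
      rw [centralizer_sup, ← hVD]
      refine le_inf inf_le_right (inf_le_left.trans ?_)
      rw [hDdef]
      exact centralizer_le hZV
    · exact inf_le_inf_left _ hZV
  have hDE : D ⊓ E = Z ⊓ A := by
    apply le_antisymm
    · rw [hE, ← inf_assoc, hDV]
      exact inf_le_inf_right _ inf_le_right
    · refine le_inf ?_ (le_inf (inf_le_left.trans hZV) inf_le_right)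
      exact (inf_le_inf_right _ hQc).trans hQAD
  have hZE : Z ⊓ E = Z ⊓ A := by
    rw [hE, ← inf_assoc, inf_eq_left.2 hZV]
  have hZEsup : Z ⊔ E = V := by
    apply le_antisymm (sup_le hZV inf_le_left)
    intro v hv
    have h1 : v ∈ (Z : Set P) * (E : Set P) := by rw [← hVset]; exact hv
    obtain ⟨z, hz, a, ha, rfl⟩ := h1
    exact Subgroup.mul_mem_sup hz ha
  have c1 := card_sup_of_eq_mul (H := D) (K := Z) (by rw [hDZQ]; exact hQset)
  have c2 := card_sup_of_eq_mul (H := Z) (K := E) (by rw [hZEsup]; exact hVset)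
  have c3 := large_card_eq hQl hVl
  have c4 := card_mul_card_le D E
  have c5 := card_mul_card_le (D ⊓ V) E
  rw [hDZQ] at c1
  rw [hZEsup, hZE] at c2
  rw [← hZdef, ← hDdef] at c3
  rw [hDE] at c4
  have hDVE : (D ⊓ V) ⊓ E = Z ⊓ A := by
    rw [← hDE, hE]
    apply le_antisymm
    · exact le_inf (inf_le_left.trans inf_le_left) inf_le_right
    · exact le_inf (le_inf inf_le_left (inf_le_right.trans inf_le_left)) inf_le_right
  rw [hDVE, hDV] at c5
  have hEc : E ≤ centralizer (D : Set P) := by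
    rw [← hVD]; exact inf_le_left
  have hEab : E ≤ centralizer (E : Set P) := by
    exact (inf_le_right : E ≤ A).trans (hA.trans (centralizer_le (inf_le_right : E ≤ A)))
  -- the centre of `D ⊔ E`
  have hcen : (D ⊓ Z) ⊔ E ≤ (D ⊔ E) ⊓ centralizer ((D ⊔ E : Subgroup P) : Set P) := by
    apply le_inf
    · exact sup_le_sup_right inf_le_left _
    · rw [centralizer_sup]
      refine sup_le (le_inf ?_ ?_) (le_inf hEc hEab)
      · rw [← hVD]; exact inf_le_right.trans hZV
      · refine inf_le_left.trans ?_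
        rw [hDdef]
        exact centralizer_le (inf_le_left : E ≤ V)
  have c6 := Nat.card_mono (Set.toFinite _) hcen
  have hDEcl : IsCentrallyLarge (D ⊔ E) ∧ Nat.card Q ≤ Nat.card (D ⊔ E : Subgroup P) := by
    rw [isCentrallyLarge_iff]
    have hQf := (isCentrallyLarge_iff Q).1 hQ.1
    rw [← hZdef, inf_eq_right.2 hQc] at hQf
    change Nat.card ((D ⊓ Z) ⊔ E : Subgroup P) ≤
      Nat.card ((D ⊔ E) ⊓ centralizer ((D ⊔ E : Subgroup P) : Set P) : Subgroup P) at c6
    have key : Nat.card Q ≤ Nat.card (D ⊔ E : Subgroup P) ∧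
        Nat.card Z ≤ Nat.card ((D ⊓ Z) ⊔ E : Subgroup P) := by
      generalize Nat.card ((D ⊔ E) ⊓ centralizer ((D ⊔ E : Subgroup P) : Set P) : Subgroup P) = u at *
      have pq : 0 < Nat.card Q := Nat.card_pos
      have pz : 0 < Nat.card Z := Nat.card_pos
      have pd : 0 < Nat.card D := Nat.card_pos
      have pv : 0 < Nat.card V := Nat.card_pos
      have pe : 0 < Nat.card E := Nat.card_pos
      have pi : 0 < Nat.card (Z ⊓ A : Subgroup P) := Nat.card_pos
      have pz0 : 0 < Nat.card (D ⊓ Z : Subgroup P) := Nat.card_pos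
      generalize Nat.card Q = q at *
      generalize Nat.card Z = z at *
      generalize Nat.card D = d at *
      generalize Nat.card V = v at *
      generalize Nat.card E = e at *
      generalize Nat.card (Z ⊓ A : Subgroup P) = i at *
      generalize Nat.card (D ⊓ Z : Subgroup P) = z0 at *
      generalize Nat.card (D ⊔ E : Subgroup P) = s at *
      generalize Nat.card ((D ⊓ Z) ⊔ E : Subgroup P) = t at *
      -- c1 : q * z0 = d * z, c2 : v * i = z * e, c3 : q * z = v * d, c4 : d * e ≤ s * i, c5 : z0 * e ≤ t * i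
      have k1 : q * i = d * e := by
        have : (q * i) * z = (d * e) * z := by
          calc (q * i) * z = (q * z) * i := by ring
            _ = (v * d) * i := by rw [c3]
            _ = (v * i) * d := by ring
            _ = (z * e) * d := by rw [c2]
            _ = _ := by ring
        exact Nat.eq_of_mul_eq_mul_right pz this
      have k2 : z0 * e = z * i := by
        have : (z0 * e) * (d * i) = (z * i) * (d * i) := by
          calc (z0 * e) * (d * i) = z0 * (d * e) * i := by ring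
            _ = z0 * (q * i) * i := by rw [k1]
            _ = (q * z0) * i * i := by ring
            _ = (d * z) * i * i := by rw [c1]
            _ = _ := by ring
        exact Nat.eq_of_mul_eq_mul_right (Nat.mul_pos pd pi) this
      constructor
      · rw [← k1] at c4
        exact Nat.le_of_mul_le_mul_right c4 pi
      · rw [k2] at c5
        exact Nat.le_of_mul_le_mul_right c5 pi
    refine ⟨fun R' => (hQf R').trans (Nat.mul_le_mul key.1 (key.2.trans c6)), key.1⟩
  have hle : Nat.card (D ⊔ E : Subgroup P) ≤ Nat.card Q := by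
    have hn : E ≤ normalizer (D : Set P) := hEc.trans (centralizer_le_normalizer _)
    have c7 := card_sup_of_eq_mul (H := D) (K := E) (coe_mul_of_right_le_normalizer_left D E hn)
    rw [hDE] at c7
    have pz : 0 < Nat.card Z := Nat.card_pos
    have pi : 0 < Nat.card (Z ⊓ A : Subgroup P) := Nat.card_pos
    have k : Nat.card (D ⊔ E : Subgroup P) * (Nat.card (Z ⊓ A : Subgroup P) * Nat.card Z) =
        Nat.card Q * (Nat.card (Z ⊓ A : Subgroup P) * Nat.card Z) := by
      calc Nat.card (D ⊔ E : Subgroup P) * (Nat.card (Z ⊓ A : Subgroup P) * Nat.card Z)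
          = (Nat.card (D ⊔ E : Subgroup P) * Nat.card (Z ⊓ A : Subgroup P)) * Nat.card Z := by ring
        _ = (Nat.card D * Nat.card E) * Nat.card Z := by rw [c7]
        _ = (Nat.card Z * Nat.card E) * Nat.card D := by ring
        _ = (Nat.card V * Nat.card (Z ⊓ A : Subgroup P)) * Nat.card D := by rw [c2]
        _ = (Nat.card V * Nat.card D) * Nat.card (Z ⊓ A : Subgroup P) := by ring
        _ = (Nat.card Q * Nat.card Z) * Nat.card (Z ⊓ A : Subgroup P) := by rw [c3]
        _ = _ := by ring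
    exact (Nat.eq_of_mul_eq_mul_right (Nat.mul_pos pi pz) k).le
  obtain ⟨Q', hQ'le, hQ'⟩ := exists_min_le hDEcl.1
  have hcard := (mcl_card hQ hQ').1
  have hQ'eq : Q' = D ⊔ E := by
    apply Subgroup.eq_of_le_of_card_ge hQ'le
    rw [← hcard]
    exact hle
  rw [hQ'eq] at hQ'
  exact ⟨D, V, rfl, hVD, hZV, hDQ, hVinv, hDinv, hDmem, hVset, hQset, hDVset, hQ'⟩

/-- The choice of a minimal centrally large subgroup maximal with respect to the upper central series. -/
theorem exists_star (n : ℕ) : ∃ Q : Subgroup P, IsMinimalCentrallyLarge Q ∧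
    ∀ k ≤ n, ∀ Q' : Subgroup P, IsMinimalCentrallyLarge Q' → Q ⊓ Subgroup.upperCentralSeries P k ≤ Q' →
      Q' ⊓ Subgroup.upperCentralSeries P k = Q ⊓ Subgroup.upperCentralSeries P k := by
  induction n with
  | zero =>
    obtain ⟨Q, hQ⟩ := exists_min (P := P)
    refine ⟨Q, hQ, fun k hk Q' _ _ => ?_⟩
    obtain rfl : k = 0 := by omega
    simp
  | succ n ih =>
    obtain ⟨Q, hQ, hstar⟩ := ih
    obtain ⟨Q₁, hQ₁, hmax⟩ := (Set.toFinite {Q₁ : Subgroup P | IsMinimalCentrallyLarge Q₁ ∧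
        Q ⊓ Subgroup.upperCentralSeries P n ≤ Q₁}).exists_maximalFor
      (fun Q₁ : Subgroup P => Nat.card (Q₁ ⊓ Subgroup.upperCentralSeries P (n + 1) : Subgroup P)) _
      ⟨Q, hQ, inf_le_left⟩
    have hlow : ∀ k ≤ n, Q₁ ⊓ Subgroup.upperCentralSeries P k = Q ⊓ Subgroup.upperCentralSeries P k := by
      intro k hk
      have h1 := hstar n le_rfl Q₁ hQ₁.1 hQ₁.2
      have hm := Subgroup.upperCentralSeries_mono P hk
      calc Q₁ ⊓ Subgroup.upperCentralSeries P k = (Q₁ ⊓ Subgroup.upperCentralSeries P n) ⊓ Subgroup.upperCentralSeries P k := by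
            rw [inf_assoc, inf_eq_right.2 hm]
        _ = (Q ⊓ Subgroup.upperCentralSeries P n) ⊓ Subgroup.upperCentralSeries P k := by rw [h1]
        _ = _ := by rw [inf_assoc, inf_eq_right.2 hm]
    refine ⟨Q₁, hQ₁.1, fun k hk Q' hQ' hle => ?_⟩
    rcases Nat.lt_or_ge k (n + 1) with hk' | hk'
    · have hk'' : k ≤ n := by omega
      rw [hlow k hk''] at hle ⊢
      exact hstar k hk'' Q' hQ' hle
    · obtain rfl : k = n + 1 := le_antisymm hk hk'
      have hmem : Q' ∈ {Q₁ : Subgroup P | IsMinimalCentrallyLarge Q₁ ∧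
          Q ⊓ Subgroup.upperCentralSeries P n ≤ Q₁} := by
        refine ⟨hQ', ?_⟩
        rw [← hlow n le_rfl]
        exact (inf_le_inf_left _ (Subgroup.upperCentralSeries_mono P (Nat.le_succ n))).trans hle
      have hsub : Q₁ ⊓ Subgroup.upperCentralSeries P (n + 1) ≤ Q' ⊓ Subgroup.upperCentralSeries P (n + 1) :=
        le_inf hle inf_le_right
      symm
      apply Subgroup.eq_of_le_of_card_ge hsub
      exact hmax hmem (Nat.card_mono (Set.toFinite _) hsub)

theorem normalizes_of_star {N : ℕ} (hN : Subgroup.upperCentralSeries P N = ⊤) {Q A : Subgroup P}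
    (hQ : IsMinimalCentrallyLarge Q)
    (hstar : ∀ k ≤ N, ∀ Q' : Subgroup P, IsMinimalCentrallyLarge Q' → Q ⊓ Subgroup.upperCentralSeries P k ≤ Q' →
      Q' ⊓ Subgroup.upperCentralSeries P k = Q ⊓ Subgroup.upperCentralSeries P k)
    (hA : A ≤ centralizer (A : Set P))
    (hZA : ((centralizer (Q : Set P) ⊔ A : Subgroup P) : Set P) =
      (centralizer (Q : Set P) : Set P) * (A : Set P)) :
    ∀ a ∈ A, ∀ x ∈ Q, a * x * a⁻¹ ∈ Q := by
  classical
  obtain ⟨D, V, hDV, hVD, hZV, hDQ, hVinv, hDinv, hDmem, hVset, hQset, hDVset, hmcl⟩ := setup hQ hA hZA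
  obtain ⟨-, hQc⟩ := (cl_iff Q).1 hQ.1
  by_contra hcon
  -- `i` minimal such that `Q ⊓ U_i` is not `A`-invariant
  have hex : ∃ i, ¬ ∀ a ∈ A, ∀ x ∈ Q ⊓ Subgroup.upperCentralSeries P i, a * x * a⁻¹ ∈ Q := by
    refine ⟨N, ?_⟩
    rw [hN, inf_top_eq]
    exact hcon
  set i := Nat.find hex with hi
  have hspec := Nat.find_spec hex
  rw [← hi] at hspec
  have hmin : ∀ j < i, ∀ a ∈ A, ∀ x ∈ Q ⊓ Subgroup.upperCentralSeries P j, a * x * a⁻¹ ∈ Q := by
    intro j hj
    exact not_not.1 (Nat.find_min hex hj)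
  have hiN : i ≤ N := Nat.find_min' hex (by rw [hN, inf_top_eq]; exact hcon)
  have hi0 : i ≠ 0 := by
    intro h0
    rw [h0] at hspec
    apply hspec
    intro a _ x hx
    rw [Subgroup.upperCentralSeries_zero, inf_bot_eq, mem_bot] at hx
    subst hx
    simp
  obtain ⟨j, hj⟩ := Nat.exists_eq_succ_of_ne_zero hi0
  have hinvj : ∀ a ∈ A, ∀ x ∈ Q ⊓ Subgroup.upperCentralSeries P j, a * x * a⁻¹ ∈ Q := hmin j (by omega)
  -- hence `Q ⊓ U_j ≤ D`
  have hQjD : Q ⊓ Subgroup.upperCentralSeries P j ≤ D := by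
    intro x hx
    exact hDmem x (fun a ha => hinvj a ha x hx)
  -- there is an element `u` of `D ⊔ V` in `U_j` outside `Q`
  have hDVinv : ∀ a ∈ A, ∀ x ∈ D ⊔ V, a * x * a⁻¹ ∈ D ⊔ V := by
    intro a ha x hx
    have hx' : x ∈ (D : Set P) * (V : Set P) := by rw [← hDVset]; exact hx
    obtain ⟨d, hd, v, hv, rfl⟩ := hx'
    have : a * (d * v) * a⁻¹ = (a * d * a⁻¹) * (a * v * a⁻¹) := by group
    show a * (d * v) * a⁻¹ ∈ D ⊔ V
    rw [this]
    exact Subgroup.mul_mem_sup (hDinv a ha d hd) (hVinv a ha v hv)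
  have hQDV : Q ≤ D ⊔ V := by
    intro x hx
    have hx' : x ∈ (D : Set P) * (centralizer (Q : Set P) : Set P) := by rw [← hQset]; exact hx
    obtain ⟨d, hd, z, hz, rfl⟩ := hx'
    exact Subgroup.mul_mem_sup hd (hZV hz)
  have hex2 : ∃ k, ∃ u ∈ D ⊔ V, u ∈ Subgroup.upperCentralSeries P j ∧ u ∉ Q ∧ u ∈ Subgroup.upperCentralSeries P k := by
    rw [hj] at hspec
    push Not at hspec
    obtain ⟨a, ha, x, hx, hax⟩ := hspec
    refine ⟨j, ⁅x, a⁆, ?_, ?_, ?_, ?_⟩
    · rw [commutatorElement_def]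
      have h1 := hDVinv a ha x⁻¹ ((D ⊔ V).inv_mem (hQDV hx.1))
      have := (D ⊔ V).mul_mem (hQDV hx.1) h1
      simpa [mul_assoc] using this
    · exact Subgroup.mem_upperCentralSeries_succ_iff.1 hx.2 a
    · intro h1
      apply hax
      have h2 := Q.mul_mem (Q.inv_mem h1) hx.1
      rw [commutatorElement_def] at h2
      simpa [mul_assoc] using h2
    · exact Subgroup.mem_upperCentralSeries_succ_iff.1 hx.2 a
  set k := Nat.find hex2 with hk
  obtain ⟨u, huDV, huj, huQ, huk⟩ := Nat.find_spec hex2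
  rw [← hk] at huk
  have hmin2 : ∀ l < k, ∀ w ∈ D ⊔ V, w ∈ Subgroup.upperCentralSeries P j → w ∈ Subgroup.upperCentralSeries P l → w ∈ Q := by
    intro l hl w hw1 hw2 hw3
    by_contra hw4
    exact Nat.find_min hex2 hl ⟨w, hw1, hw2, hw4, hw3⟩
  have hkj : k ≤ j := Nat.find_min' hex2 ⟨u, huDV, huj, huQ, huj⟩
  have hk0 : k ≠ 0 := by
    intro h0
    rw [h0, Subgroup.upperCentralSeries_zero, mem_bot] at huk
    rw [huk] at huQ
    exact huQ Q.one_mem
  obtain ⟨l, hl⟩ := Nat.exists_eq_succ_of_ne_zero hk0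
  -- `[a, u] ∈ D`
  have hcomm : ∀ a ∈ A, a * u * a⁻¹ * u⁻¹ ∈ D := by
    intro a ha
    have h1 : a * u * a⁻¹ * u⁻¹ ∈ Subgroup.upperCentralSeries P l := by
      rw [hl] at huk
      have := (Subgroup.upperCentralSeries P l).inv_mem (Subgroup.mem_upperCentralSeries_succ_iff.1 huk a)
      rw [commutatorElement_def] at this
      simpa [mul_assoc] using this
    have h2 : a * u * a⁻¹ * u⁻¹ ∈ D ⊔ V :=
      (D ⊔ V).mul_mem (hDVinv a ha u huDV) ((D ⊔ V).inv_mem huDV)
    have h3 : a * u * a⁻¹ * u⁻¹ ∈ Subgroup.upperCentralSeries P j :=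
      Subgroup.upperCentralSeries_mono P (by omega : l ≤ j) h1
    exact hQjD ⟨hmin2 l (by omega) _ h2 h3 h1, h3⟩
  -- decompose `u`
  have hu' : u ∈ (D : Set P) * (V : Set P) := by rw [← hDVset]; exact huDV
  obtain ⟨d, hd, v, hv, hdv⟩ := hu'
  have hv' : v ∈ (centralizer (Q : Set P) : Set P) * ((V ⊓ A : Subgroup P) : Set P) := by
    rw [← hVset]; exact hv
  obtain ⟨z, hz, w, hw, hzw⟩ := hv'
  have huz : u = d * (z * w) := by rw [← hdv, ← hzw]
  -- `z ∈ D`
  have hzD : z ∈ D := by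
    apply hDmem
    intro a ha
    have hwa : a * w * a⁻¹ = w := by
      have : a * w = w * a := mem_centralizer_iff.1 (hA hw.2) a ha
      rw [this, mul_assoc, mul_inv_cancel, mul_one]
    have h1 := hcomm a ha
    have hzVa : a * z * a⁻¹ ∈ V := hVinv a ha z (hZV hz)
    -- a u a⁻¹ u⁻¹ = (a d a⁻¹) (a z a⁻¹) w w⁻¹ z⁻¹ d⁻¹
    have h2 : a * u * a⁻¹ * u⁻¹ = (a * d * a⁻¹) * ((a * z * a⁻¹) * z⁻¹) * d⁻¹ := by
      have : a * u * a⁻¹ = (a * d * a⁻¹) * (a * z * a⁻¹) * (a * w * a⁻¹) := by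
        rw [huz]; group
      rw [this, hwa, huz]
      group
    rw [h2] at h1
    have h3 : (a * z * a⁻¹) * z⁻¹ ∈ D := by
      have := D.mul_mem (D.mul_mem (D.inv_mem (hDinv a ha d hd)) h1) hd
      simpa [mul_assoc] using this
    have h4 := Q.mul_mem (hDQ h3) (hQc hz)
    simpa [mul_assoc] using h4
  have huQs : u ∈ D ⊔ (V ⊓ A) := by
    rw [huz, ← mul_assoc]
    exact Subgroup.mul_mem_sup (D.mul_mem hd hzD) hw
  have hfin := hstar j (by omega) _ hmcl (hQjD.trans le_sup_left)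
  have : u ∈ Q ⊓ Subgroup.upperCentralSeries P j := by
    rw [← hfin]
    exact ⟨huQs, huj⟩
  exact huQ this.1

/-- S3008 (2). -/
theorem exists_mcl_normalized (hP : Group.IsNilpotent P) :
    ∃ Q : Subgroup P, IsMinimalCentrallyLarge Q ∧ thompsonSubgroupA P ≤ normalizer (Q : Set P) ∧
      minimalCentrallyLargeJoin P ≤ normalizer (Q : Set P) := by
  obtain ⟨N, hN⟩ := (Group.isNilpotent_iff P).1 hP
  obtain ⟨Q, hQ, hstar⟩ := exists_star (P := P) N
  have key : ∀ A : Subgroup P, A ≤ centralizer (A : Set P) →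
      ((centralizer (Q : Set P) ⊔ A : Subgroup P) : Set P) =
      (centralizer (Q : Set P) : Set P) * (A : Set P) → A ≤ normalizer (Q : Set P) := by
    intro A hA hZA a ha
    rw [mem_normalizer_iff_map_conj]
    apply map_conj_eq_of_le
    rintro _ ⟨x, hx, rfl⟩
    exact normalizes_of_star hN hQ hstar hA hZA a ha x hx
  refine ⟨Q, hQ, ?_, ?_⟩
  · apply sSup_le
    intro A hA
    exact key A ((isMulCommutative_iff A).1 hA.1) (cl_sup_maxAb hQ.1 hA).2.2.2
  · apply sSup_le
    intro R hR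
    obtain ⟨hQl, hQc⟩ := (cl_iff Q).1 hQ.1
    obtain ⟨hRl, hRc⟩ := (cl_iff R).1 hR.1
    have hZR : centralizer (R : Set P) ≤ centralizer ((centralizer (R : Set P) : Subgroup P) : Set P) := by
      rw [← (cd_centralizer hRl).2]; exact hRc
    have h1 := key _ hZR (cd hQl hRl).2.2.2.1
    have h2 := (mcl_pair hR hQ).1
    rw [← h2]
    exact sup_le (inf_le_right.trans le_normalizer) h1

end Cfsg.Agent.H50.CD
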