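import Mathlib.GroupTheory.Transfer
import Mathlib.GroupTheory.SpecificGroups.Cyclic
import Mathlib.GroupTheory.QuotientGroup.Basic
import Cfsg.Agent.H50.Basic

/-!
A homomorphism `ϕ : M →* A` to a commutative group that kills `M ∩ c M c⁻¹` (conjugated into `M`) for all `c ∉ M`
extends to `G` by transfer (the case of the Frobenius–Wielandt theorem with abelian quotient).  (helper50)
-/

set_option autoImplicit false

namespace Cfsg.Agent.H50

open MulAction Subgroup

variable {G : Type*} [Group G]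

theorem transfer_eq_of_tame {A : Type*} [CommGroup A] {M : Subgroup G} [Finite G] (ϕ : M →* A)
    (h : ∀ c : G, c ∉ M → ∀ m ∈ M, ∀ hm : c⁻¹ * m * c ∈ M, ϕ ⟨c⁻¹ * m * c, hm⟩ = 1) (m : M) :
    MonoidHom.transfer ϕ (m : G) = ϕ m := by
  classical
  let _ := M.fintypeQuotientOfFiniteIndex
  letI : Fintype (Quotient (orbitRel (zpowers (m : G)) (G ⧸ M))) := Fintype.ofFinite _
  rw [MonoidHom.transfer_eq_prod_quotient_orbitRel_zpowers_quot]
  -- the base coset
  set b : G ⧸ M := QuotientGroup.mk (1 : G) with hb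
  have hfix : (m : G) • b = b := by
    rw [hb, MulAction.Quotient.smul_mk, smul_eq_mul, mul_one]
    exact QuotientGroup.eq.2 (by simp)
  set q₀ : Quotient (orbitRel (zpowers (m : G)) (G ⧸ M)) := Quotient.mk'' b with hq₀
  rw [Finset.prod_eq_single q₀]
  · -- the value at the base orbit
    have hout : q₀.out = b := by
      have h1 : Quotient.mk'' q₀.out = (Quotient.mk'' b : Quotient (orbitRel (zpowers (m : G)) (G ⧸ M))) :=
        Quotient.out_eq q₀
      have h2 : q₀.out ∈ orbit (zpowers (m : G)) b := (orbitRel_apply).1 (Quotient.eq''.1 h1)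
      obtain ⟨⟨z, hz⟩, hzb⟩ := h2
      obtain ⟨k, rfl⟩ := mem_zpowers_iff.1 hz
      have h3 : ((m : G) ^ k) • b = b := by
        have : (m : G) ∈ stabilizer G b := hfix
        exact (stabilizer G b).zpow_mem this k
      rw [← hzb]
      exact h3
    have hc : q₀.out.out ∈ M := by
      have h1 : (QuotientGroup.mk (q₀.out.out) : G ⧸ M) = QuotientGroup.mk (1 : G) := by
        rw [QuotientGroup.out_eq', hout]
      have h2 := QuotientGroup.eq.1 h1
      have h3 := M.inv_mem h2
      simpa using h3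
    have hper : Function.minimalPeriod ((m : G) • ·) q₀.out = 1 := by
      rw [hout]
      exact Function.minimalPeriod_eq_one_iff_isFixedPt.2 hfix
    have hval : (⟨q₀.out.out⁻¹ * (m : G) ^ Function.minimalPeriod ((m : G) • ·) q₀.out * q₀.out.out,
            QuotientGroup.out_conj_pow_minimalPeriod_mem M (m : G) q₀.out⟩ : M) =
        (⟨q₀.out.out, hc⟩ : M)⁻¹ * m * ⟨q₀.out.out, hc⟩ := by
      apply Subtype.ext
      simp [hper]
    rw [hval, map_mul, map_mul, map_inv, mul_comm (ϕ ⟨q₀.out.out, hc⟩)⁻¹, mul_assoc, inv_mul_cancel, mul_one]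
  · intro q _ hq
    apply h
    · intro hc
      apply hq
      have h1 : (QuotientGroup.mk (q.out.out) : G ⧸ M) = q.out := QuotientGroup.out_eq' _
      have h2 : q.out = b := by
        rw [← h1, hb]
        exact QuotientGroup.eq.2 (by simpa using hc)
      rw [hq₀, ← h2]
      exact (Quotient.out_eq q).symm
    · exact M.pow_mem m.2 _
  · intro h
    exact absurd (Finset.mem_univ _) h

/-- Frobenius–Wielandt for a normal subgroup `H` of prime index in `M`. -/
theorem exists_normal_inf_eq_of_prime [Finite G] {M H : Subgroup G} (hHM : H ≤ M)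
    (hn : (H.subgroupOf M).Normal) (hprime : (H.relIndex M).Prime)
    (h : ∀ c : G, c ∉ M → ∀ m ∈ M, c⁻¹ * m * c ∈ M → c⁻¹ * m * c ∈ H) :
    ∃ N : Subgroup G, N.Normal ∧ N ⊓ M = H ∧ N ⊔ M = ⊤ := by
  haveI : Fact (H.relIndex M).Prime := ⟨hprime⟩
  have hcard : Nat.card (↥M ⧸ H.subgroupOf M) = H.relIndex M := rfl
  have hcard' : Nat.card (Multiplicative (ZMod (H.relIndex M))) = H.relIndex M := by
    rw [Nat.card_congr Multiplicative.toAdd, Nat.card_zmod]
  let e : (↥M ⧸ H.subgroupOf M) ≃* Multiplicative (ZMod (H.relIndex M)) :=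
    mulEquivOfPrimeCardEq hcard hcard'
  let ϕ : ↥M →* Multiplicative (ZMod (H.relIndex M)) := e.toMonoidHom.comp (QuotientGroup.mk' (H.subgroupOf M))
  have hϕ : ∀ x : ↥M, ϕ x = 1 ↔ (x : G) ∈ H := by
    intro x
    have : ϕ x = e (QuotientGroup.mk' (H.subgroupOf M) x) := rfl
    rw [this, MulEquiv.map_eq_one_iff, ← Subgroup.mem_subgroupOf]
    exact QuotientGroup.eq_one_iff x
  have ht := transfer_eq_of_tame ϕ (fun c hc m hm hcm => (hϕ _).2 (h c hc m hm hcm))
  refine ⟨(MonoidHom.transfer ϕ).ker, inferInstance, ?_, ?_⟩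
  · ext x
    rw [Subgroup.mem_inf, MonoidHom.mem_ker]
    constructor
    · rintro ⟨h1, h2⟩
      have := ht ⟨x, h2⟩
      rw [show ((⟨x, h2⟩ : ↥M) : G) = x from rfl, h1] at this
      exact (hϕ ⟨x, h2⟩).1 this.symm
    · intro hx
      refine ⟨?_, hHM hx⟩
      have := ht ⟨x, hHM hx⟩
      rw [show ((⟨x, hHM hx⟩ : ↥M) : G) = x from rfl] at this
      rw [this, (hϕ ⟨x, hHM hx⟩).2 hx]
  · rw [eq_top_iff]
    intro g _
    have hsurj : Function.Surjective ϕ := e.surjective.comp (QuotientGroup.mk'_surjective _)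
    obtain ⟨m, hm⟩ := hsurj (MonoidHom.transfer ϕ g)
    have : g * (m : G)⁻¹ ∈ (MonoidHom.transfer ϕ).ker := by
      rw [MonoidHom.mem_ker, map_mul, map_inv, ht m, hm, mul_inv_cancel]
    have h2 : g = (g * (m : G)⁻¹) * (m : G) := by group
    rw [h2]
    exact Subgroup.mul_mem_sup this m.2

end Cfsg.Agent.H50
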