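import Cfsg.Agent.H50.Basic
import Cfsg.Agent.H50.TameTransfer

/-!
Maximal chains `H < M < G` with `H` normal in `M` (for S3014, S3015).  (helper50)
-/

set_option autoImplicit false

namespace Cfsg.Agent.H50

open Subgroup

variable {G : Type*} [Group G]

/-- If `H` is maximal in `M` then `H ⊔ ⟨x⟩ = M` for `x ∈ M ∖ H`. -/
theorem sup_zpowers_eq_of_isCoatom {H M : Subgroup G} (hHM : H ≤ M) (hmax : IsCoatom (H.subgroupOf M))
    {x : G} (hxM : x ∈ M) (hxH : x ∉ H) : H ⊔ zpowers x = M := by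
  have hle : H ⊔ zpowers x ≤ M := sup_le hHM (by rwa [zpowers_le])
  have h1 : H.subgroupOf M < (H ⊔ zpowers x).subgroupOf M := by
    rw [lt_iff_le_and_ne]
    refine ⟨Subgroup.comap_mono le_sup_left, ?_⟩
    intro h
    have h2 : (⟨x, hxM⟩ : ↥M) ∈ (H ⊔ zpowers x).subgroupOf M :=
      mem_subgroupOf.2 ((le_sup_right : zpowers x ≤ _) (mem_zpowers x))
    rw [← h] at h2
    exact hxH (mem_subgroupOf.1 h2)
  have h3 := hmax.2 _ h1
  exact le_antisymm hle (subgroupOf_eq_top.1 h3)

/-- Conjugates of a coatom chain. -/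
theorem sup_zpowers_conj {H M : Subgroup G} {c x : G}
    (h : H ⊔ zpowers (c⁻¹ * x * c) = M) :
    H.map (MulAut.conj c).toMonoidHom ⊔ zpowers x = M.map (MulAut.conj c).toMonoidHom := by
  rw [← h, Subgroup.map_sup, MonoidHom.map_zpowers]
  congr 2
  simp [MulAut.conj_apply, mul_assoc]

/-- A subgroup normalized by two elements' generated pieces. -/
theorem normal_of_normalizer_eq_top {T : Subgroup G} (h : normalizer (T : Set G) = ⊤) : T.Normal :=
  normalizer_eq_top_iff.1 h

/-- Key lemma: if `c ∉ M`, `T = ⟨H, cHc⁻¹⟩` meets `cMc⁻¹` in `cHc⁻¹`, and some `m ∈ M ∩ cMc⁻¹` is not in `cHc⁻¹`,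
then `T` is normal in `G` or `M` is. -/
theorem normal_of_not_tame [Finite G] {H M : Subgroup G} (hHM : H ≤ M)
    (hmax : IsCoatom (H.subgroupOf M)) (hM : IsCoatom M)
    (hn : M ≤ normalizer (H : Set G)) {c m : G} (hm : m ∈ M) (hcm : c⁻¹ * m * c ∈ M)
    (hcH : c⁻¹ * m * c ∉ H)
    (hT : (H ⊔ H.map (MulAut.conj c).toMonoidHom) ⊓ M = H)
    (hT' : (H ⊔ H.map (MulAut.conj c).toMonoidHom) ⊓ M.map (MulAut.conj c).toMonoidHom =
      H.map (MulAut.conj c).toMonoidHom) :
    (H ⊔ H.map (MulAut.conj c).toMonoidHom).Normal ∨ M.map (MulAut.conj c).toMonoidHom = M := by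
  set Hc := H.map (MulAut.conj c).toMonoidHom with hHc
  set Mc := M.map (MulAut.conj c).toMonoidHom with hMc
  set T := H ⊔ Hc with hTdef
  have hmMc : m ∈ Mc := mem_map_conj.2 hcm
  have hmT : m ∉ T := by
    intro h
    have : m ∈ Hc := by rw [← hT']; exact ⟨h, hmMc⟩
    exact hcH (mem_map_conj.1 this)
  have hmH : m ∉ H := fun h => hmT ((le_sup_left : H ≤ T) h)
  have h1 : H ⊔ zpowers m = M := sup_zpowers_eq_of_isCoatom hHM hmax hm hmH
  have h2 : Hc ⊔ zpowers m = Mc :=
    sup_zpowers_conj (sup_zpowers_eq_of_isCoatom hHM hmax hcm hcH)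
  -- `m` normalizes `T`
  have hnc : Mc ≤ normalizer (Hc : Set G) := by
    rintro _ ⟨x, hx, rfl⟩
    have h3 := mem_normalizer_iff_map_conj.1 (hn hx)
    rw [mem_normalizer_iff_map_conj, hHc, ← map_conj_mul]
    have : (MulAut.conj c).toMonoidHom x * c = c * x := by
      simp [MulAut.conj_apply]
    rw [this, map_conj_mul, h3]
  have hmN : m ∈ normalizer (T : Set G) := by
    rw [mem_normalizer_iff_map_conj, hTdef, Subgroup.map_sup,
      mem_normalizer_iff_map_conj.1 (hn hm), mem_normalizer_iff_map_conj.1 (hnc hmMc)]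
  set X := T ⊔ zpowers m with hX
  have hXN : X ≤ normalizer (T : Set G) := sup_le le_normalizer (by rwa [zpowers_le])
  have hMX : M ≤ X := by
    rw [← h1]
    exact sup_le_sup_right le_sup_left _
  have hMcX : Mc ≤ X := by
    rw [← h2]
    exact sup_le_sup_right le_sup_right _
  rcases hM.le_iff.1 hMX with h | h
  · left
    rw [h] at hXN
    exact normal_of_normalizer_eq_top (top_le_iff.1 hXN)
  · right
    rw [h] at hMcX
    exact map_conj_eq_of_le hMcX

/-- A normal maximal subgroup has prime index. -/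
theorem prime_index_of_isCoatom_normal [Finite G] {H : Subgroup G} [H.Normal] (h : IsCoatom H) :
    H.index.Prime := by
  have h1 : H.index ≠ 1 := by
    rw [Ne, index_eq_one]
    exact h.1
  obtain ⟨p, hp, hpd⟩ := Nat.exists_prime_and_dvd h1
  haveI : Fact p.Prime := ⟨hp⟩
  have hc : Nat.card (G ⧸ H) = H.index := rfl
  rw [← hc] at hpd
  obtain ⟨x, hx⟩ := exists_prime_orderOf_dvd_card' p hpd
  obtain ⟨g, rfl⟩ := QuotientGroup.mk'_surjective H x
  have hg : g ∉ H := by
    intro hg
    have : QuotientGroup.mk' H g = 1 := (QuotientGroup.eq_one_iff g).2 hg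
    rw [this, orderOf_one] at hx
    exact hp.one_lt.ne hx
  have htop : H ⊔ zpowers g = ⊤ := by
    apply h.2
    rw [lt_iff_le_and_ne]
    refine ⟨le_sup_left, ?_⟩
    intro he
    apply hg
    rw [he]
    exact (le_sup_right : zpowers g ≤ _) (mem_zpowers g)
  have hz : zpowers (QuotientGroup.mk' H g) = ⊤ := by
    rw [← MonoidHom.map_zpowers]
    have : (H ⊔ zpowers g).map (QuotientGroup.mk' H) = ⊤ := by
      rw [htop]
      exact Subgroup.map_top_of_surjective _ (QuotientGroup.mk'_surjective H)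
    rw [Subgroup.map_sup] at this
    have hH : H.map (QuotientGroup.mk' H) = ⊥ := by
      rw [Subgroup.map_eq_bot_iff, QuotientGroup.ker_mk']
    rwa [hH, bot_sup_eq] at this
  have hcard : Nat.card (G ⧸ H) = p := by
    rw [← hx, ← Nat.card_zpowers, hz, Subgroup.card_top]
  rw [← hc, hcard]
  exact hp

end Cfsg.Agent.H50
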