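import Cfsg.Agent.H50.PAut
import Cfsg.Agent.Alperin.Basic
import Cfsg.Agent.Transfer.Tate
import Cfsg.Agent.Transfer.Frobenius

/-!
`p`-nilpotency from strongly closed subgroups of a fixed order (S3031).  (helper50)
-/

set_option autoImplicit false
open scoped commutatorElement

namespace Cfsg.Agent.H50.HSub

open Subgroup

variable {G : Type*} [Group G] [Finite G] {p : ℕ} [Fact p.Prime]

/-- `g E g⁻¹ ∩ N_G(E) ≤ E` for all `g`. -/
def IsHSub (E : Subgroup G) : Prop :=
  ∀ g : G, E.map (MulAut.conj g).toMonoidHom ⊓ normalizer (E : Set G) ≤ E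

/-- An `ℋ`-subgroup contained in a `p`-subgroup is normal in it. -/
theorem IsHSub.le_normalizer {E P : Subgroup G} (h : IsHSub E) (hP : IsPGroup p ↥P) (hEP : E ≤ P) :
    P ≤ normalizer (E : Set G) := by
  have h1 : P ⊓ normalizer ((P ⊓ normalizer (E : Set G) : Subgroup G) : Set G) =
      P ⊓ normalizer (E : Set G) := by
    apply le_antisymm
    · rintro g ⟨hg1, hg2⟩
      refine ⟨hg1, ?_⟩
      have hE : E ≤ P ⊓ normalizer (E : Set G) := le_inf hEP Subgroup.le_normalizer
      have h2 : E.map (MulAut.conj g).toMonoidHom ≤ P ⊓ normalizer (E : Set G) := by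
        rw [← mem_normalizer_iff_map_conj.1 hg2]
        exact map_mono hE
      have h3 : E.map (MulAut.conj g).toMonoidHom ≤ E :=
        (le_inf le_rfl (h2.trans inf_le_right)).trans (h g)
      exact mem_normalizer_iff_map_conj.2 (map_conj_eq_of_le h3)
    · exact le_inf inf_le_left Subgroup.le_normalizer
  have h2 := eq_of_inf_normalizer_eq hP inf_le_left h1
  rw [h2]
  exact inf_le_right

theorem IsHSub.inf_le {E P : Subgroup G} (h : IsHSub E) (hP : IsPGroup p ↥P) (hEP : E ≤ P) (g : G) :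
    E.map (MulAut.conj g).toMonoidHom ⊓ P ≤ E :=
  (inf_le_inf_left _ (h.le_normalizer hP hEP)).trans (h g)

/-- The standing hypothesis. -/
structure Hyp (p d : ℕ) (P : Subgroup G) : Prop where
  isPGroup : IsPGroup p ↥P
  one_le : 1 ≤ d
  lt : p ^ d < Nat.card P
  sc : ∀ E : Subgroup G, E ≤ P → (Nat.card E = p ^ d ∨ (p = 2 ∧ d = 1 ∧ Nat.card E = 4)) →
    ∀ g : G, E.map (MulAut.conj g).toMonoidHom ⊓ P ≤ E

variable {d : ℕ} {P : Subgroup G}

omit [Fact p.Prime] in
theorem Hyp.mem_normalizer (h : Hyp p d P) {E Q : Subgroup G} (hEQ : E ≤ Q) (hQP : Q ≤ P)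
    (hE : Nat.card E = p ^ d ∨ (p = 2 ∧ d = 1 ∧ Nat.card E = 4)) {n : G}
    (hn : n ∈ normalizer (Q : Set G)) : n ∈ normalizer (E : Set G) := by
  rw [mem_normalizer_iff_map_conj]
  apply map_conj_eq_of_le
  refine le_trans (le_inf le_rfl ?_) (h.sc E (hEQ.trans hQP) hE n)
  refine le_trans ?_ hQP
  rw [← mem_normalizer_iff_map_conj.1 hn]
  exact map_mono hEQ

/-- `r`-elements normalizing a large `Q ≤ P` centralize it. -/
theorem Hyp.centralizes (h : Hyp p d P) (hmin : ∀ q : ℕ, q.Prime → q ∣ Nat.card G → p ≤ q)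
    {Q : Subgroup G} (hQP : Q ≤ P) (hQ : p ^ d < Nat.card Q) {r : ℕ} [Fact r.Prime] (hrp : r ≠ p) {n : G}
    (hr : IsPGroup r ↥(zpowers n)) (hn : n ∈ normalizer (Q : Set G)) : ∀ x ∈ Q, n * x = x * n := by
  have hp : p.Prime := Fact.out
  have hQp : IsPGroup p ↥Q := h.isPGroup.to_le hQP
  -- elements of a cyclic `E`
  have hcyc : ∀ E : Subgroup G, E ≤ Q → (Nat.card E = p ^ d ∨ (p = 2 ∧ d = 1 ∧ Nat.card E = 4)) →
      IsCyclic ↥E → ∀ x ∈ E, n * x = x * n := by
    intro E hEQ hE hEc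
    have hnE := h.mem_normalizer hEQ hQP hE hn
    apply centralizes_of_maximal hrp hmin (hQp.to_le hEQ) hr hnE
    intro M hME _
    -- `M` is the only subgroup of its order
    rw [mem_normalizer_iff_map_conj]
    have h1 : M.map (MulAut.conj n).toMonoidHom ≤ E := by
      rw [← mem_normalizer_iff_map_conj.1 hnE]
      exact map_mono hME
    have h2 : (M.map (MulAut.conj n).toMonoidHom).subgroupOf E = M.subgroupOf E := by
      apply eq_of_card_eq_of_cyclic
      rw [Nat.card_congr (subgroupOfEquivOfLe h1).toEquiv, Nat.card_congr (subgroupOfEquivOfLe hME).toEquiv,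
        card_map_conj]
    have h3 := congrArg (Subgroup.map E.subtype) h2
    rwa [subgroupOf_map_subtype, subgroupOf_map_subtype, inf_eq_left.2 h1, inf_eq_left.2 hME] at h3
  -- elements of order at most `p ^ d`
  have hsmall : ∀ x ∈ Q, orderOf x ≤ p ^ d → n * x = x * n := by
    intro x hx hxd
    obtain ⟨E, hxE, hEQ, hEc⟩ := exists_between (k := d) hQp ((zpowers_le).2 hx)
      (by rw [Nat.card_zpowers]; exact hxd) hQ.le
    have hxE' : x ∈ E := hxE (mem_zpowers x)
    by_cases hEcyc : IsCyclic ↥E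
    · exact hcyc E hEQ (Or.inl hEc) hEcyc x hxE'
    -- a subgroup `Q₂` of order `p ^ (d + 1)` above `E`
    obtain ⟨m, hm⟩ := hQp.exists_card_eq
    have hdm : d + 1 ≤ m := by
      rw [hm] at hQ
      have := (Nat.pow_lt_pow_iff_right hp.one_lt).1 hQ
      omega
    obtain ⟨Q₂, hEQ₂, hQ₂Q, hQ₂c⟩ := exists_between (k := d + 1) hQp hEQ
      (by rw [hEc]; exact Nat.pow_le_pow_right hp.pos (by omega))
      (by rw [hm]; exact Nat.pow_le_pow_right hp.pos hdm)
    have hQ₂p := hQp.to_le hQ₂Q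
    have hlt : E ≠ Q₂ := by
      intro he
      rw [he, hQ₂c] at hEc
      exact absurd ((Nat.pow_right_injective hp.two_le) hEc) (by omega)
    obtain ⟨y, hy, hyE⟩ : ∃ y ∈ Q₂, y ∉ E := by
      by_contra hcon
      push Not at hcon
      exact hlt (le_antisymm hEQ₂ hcon)
    have hyord : orderOf y ≤ p ^ d := by
      by_contra hcon
      push Not at hcon
      have h1 : zpowers y ≤ Q₂ := (zpowers_le).2 hy
      have h2 : Nat.card (zpowers y) ∣ p ^ (d + 1) := hQ₂c ▸ card_dvd_of_le h1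
      obtain ⟨j, hj, hj'⟩ := (Nat.dvd_prime_pow hp).1 h2
      rw [Nat.card_zpowers] at hj'
      rw [hj'] at hcon
      have hj2 : d < j := (Nat.pow_lt_pow_iff_right hp.one_lt).1 hcon
      have hj3 : j = d + 1 := by omega
      have h3 : zpowers y = Q₂ := Subgroup.eq_of_le_of_card_ge h1 (by
        rw [Nat.card_zpowers, hj', hj3, hQ₂c])
      apply hEcyc
      have : IsCyclic ↥Q₂ := by rw [← h3]; infer_instance
      exact isCyclic_of_injective (inclusion hEQ₂) (inclusion_injective hEQ₂)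
    obtain ⟨E', hyE', hE'Q₂, hE'c⟩ := exists_between (k := d) hQ₂p ((zpowers_le).2 hy)
      (by rw [Nat.card_zpowers]; exact hyord) (by rw [hQ₂c]; exact Nat.pow_le_pow_right hp.pos (by omega))
    have hnE := h.mem_normalizer hEQ hQP (Or.inl hEc) hn
    have hnE' := h.mem_normalizer (hE'Q₂.trans hQ₂Q) hQP (Or.inl hE'c) hn
    have hsup : E ⊔ E' = Q₂ := by
      have h1 : E ⊔ E' ≤ Q₂ := sup_le hEQ₂ hE'Q₂
      have h2 : Nat.card (E ⊔ E' : Subgroup G) ∣ p ^ (d + 1) := hQ₂c ▸ card_dvd_of_le h1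
      obtain ⟨j, hj, hj'⟩ := (Nat.dvd_prime_pow hp).1 h2
      have h3 : Nat.card E < Nat.card (E ⊔ E' : Subgroup G) := by
        by_contra hcon
        have h4 : E = E ⊔ E' := Subgroup.eq_of_le_of_card_ge le_sup_left (not_lt.1 hcon)
        apply hyE
        rw [h4]
        exact (le_sup_right : E' ≤ E ⊔ E') (hyE' (mem_zpowers y))
      rw [hEc, hj'] at h3
      have h4 : d < j := (Nat.pow_lt_pow_iff_right hp.one_lt).1 h3
      apply Subgroup.eq_of_le_of_card_ge h1
      rw [hQ₂c, hj']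
      exact Nat.pow_le_pow_right hp.pos (by omega)
    have hnQ₂ : n ∈ normalizer (Q₂ : Set G) := by
      rw [mem_normalizer_iff_map_conj, ← hsup, Subgroup.map_sup, mem_normalizer_iff_map_conj.1 hnE,
        mem_normalizer_iff_map_conj.1 hnE']
    refine centralizes_of_maximal hrp hmin hQ₂p hr hnQ₂ (fun M hMQ₂ hMi => ?_) x (hEQ₂ hxE')
    have hMc : Nat.card M = p ^ d := by
      have h4 : Nat.card M * M.relIndex Q₂ = Nat.card Q₂ := by
        have := Subgroup.relIndex_mul_relIndex ⊥ M Q₂ bot_le hMQ₂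
        rwa [Subgroup.relIndex_bot_left, Subgroup.relIndex_bot_left] at this
      rw [hMi, hQ₂c, pow_succ] at h4
      exact Nat.eq_of_mul_eq_mul_right hp.pos h4
    exact h.mem_normalizer (hMQ₂.trans hQ₂Q) hQP (Or.inl hMc) hn
  -- reduce to small elements
  have hcop : (Nat.card (zpowers n)).Coprime p := by
    obtain ⟨k, hk⟩ := hr.exists_card_eq
    rw [hk]
    exact Nat.Coprime.pow_left k ((Nat.coprime_primes Fact.out hp).2 hrp)
  have hzn : zpowers n ≤ normalizer (Q : Set G) := zpowers_le.2 hn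
  have hext : ∀ x : G, n * x = x * n → ∀ a ∈ zpowers n, a * x = x * a := by
    intro x hx a ha
    obtain ⟨k, rfl⟩ := mem_zpowers_iff.1 ha
    exact ((show Commute n x from hx).zpow_left k).eq
  have key : zpowers n ≤ centralizer (Q : Set G) := by
    by_cases hp2 : p = 2
    · subst hp2
      apply le_centralizer_of_omega2 (zpowers n) hcop _ Q rfl hQp hzn
      intro x hx hx4
      apply hext
      have hord : orderOf x ∣ 2 ^ 2 := orderOf_dvd_of_pow_eq_one (by simpa using hx4)
      obtain ⟨j, hj, hj'⟩ := (Nat.dvd_prime_pow hp).1 hord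
      by_cases hjd : j ≤ d
      · apply hsmall x hx
        rw [hj']
        exact Nat.pow_le_pow_right (by norm_num) hjd
      · have hd1 : d = 1 := by have := h.one_le; omega
        have hj2 : j = 2 := by omega
        apply hcyc (zpowers x) ((zpowers_le).2 hx) (Or.inr ⟨rfl, hd1, by
          rw [Nat.card_zpowers, hj', hj2]; norm_num⟩) inferInstance x (mem_zpowers x)
    · apply BG.le_centralizer_of_omega1 hp2 (zpowers n) hcop _ Q rfl hQp hzn
      intro x hx hxp
      apply hext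
      apply hsmall x hx
      calc orderOf x ≤ p := Nat.le_of_dvd hp.pos (orderOf_dvd_of_pow_eq_one hxp)
        _ = p ^ 1 := (pow_one p).symm
        _ ≤ p ^ d := Nat.pow_le_pow_right hp.pos h.one_le
  intro x hx
  exact (mem_centralizer_iff.1 (key (mem_zpowers n)) x hx).symm

theorem Hyp.frob (h : Hyp p d P) (hmin : ∀ q : ℕ, q.Prime → q ∣ Nat.card G → p ≤ q)
    {Q : Subgroup G} (hQP : Q ≤ P) (hQ : p ^ d < Nat.card Q) :
    ∀ g ∈ normalizer (Q : Set G), (orderOf g).Coprime p → g ∈ centralizer (Q : Set G) := by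
  intro g hg hcop
  refine mem_of_primePow (p := p) (N := normalizer (Q : Set G)) ?_ _ g rfl hg hcop
  intro r hr hrp n hn hnr
  have : Fact r.Prime := ⟨hr⟩
  rw [mem_centralizer_iff]
  intro x hx
  exact (h.centralizes hmin hQP hQ hrp hnr hn x hx).symm

section Fusion

variable {P : Sylow p G}

/-- One step of Alperin's theorem for elements of large order. -/
theorem Hyp.step (h : Hyp p d (P : Subgroup G)) (hmin : ∀ q : ℕ, q.Prime → q ∣ Nat.card G → p ≤ q)
    {Q : Sylow p G} (ht : Alperin.Tame P Q) {n x : G} (hn : n ∈ Alperin.nInf P Q)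
    (hx : x ∈ ((P : Subgroup G) ⊓ (Q : Subgroup G) : Subgroup G)) (hxd : p ^ d < orderOf x) :
    ∃ u ∈ (P : Subgroup G), n⁻¹ * x * n = u⁻¹ * x * u := by
  set D := (P : Subgroup G) ⊓ (Q : Subgroup G) with hD
  have hDc : p ^ d < Nat.card D := by
    refine lt_of_lt_of_le hxd ?_
    rw [← Nat.card_zpowers]
    exact Nat.le_of_dvd Nat.card_pos (card_dvd_of_le ((zpowers_le).2 hx))
  have hF := h.frob hmin (Q := D) inf_le_left hDc
  have hSp : IsPGroup p ↥(((P : Subgroup G) ⊓ normalizer (D : Set G)).subgroupOf (normalizer (D : Set G))) :=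
    (P.2.to_le inf_le_left).comap_of_injective _ (Subgroup.subtype_injective _)
  let S : Sylow p ↥(normalizer (D : Set G)) := hSp.toSylow ht.1
  obtain ⟨u, s, hu, hs, hus⟩ := Transfer.exists_mul_of_mem_normalizer hF S ⟨n, hn⟩
  have hsP : (s : G) ∈ (P : Subgroup G) := by
    have h1 : s ∈ (((P : Subgroup G) ⊓ normalizer (D : Set G)).subgroupOf (normalizer (D : Set G))) := hs
    exact (mem_subgroupOf.1 h1).1
  refine ⟨s, hsP, ?_⟩
  have hn' : n = (u : G) * (s : G) := congrArg Subtype.val hus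
  have hux : x * (u : G) = (u : G) * x := mem_centralizer_iff.1 hu x hx
  rw [hn']
  calc ((u : G) * s)⁻¹ * x * (u * s) = (s : G)⁻¹ * ((u : G)⁻¹ * (x * u)) * s := by group
    _ = (s : G)⁻¹ * ((u : G)⁻¹ * (u * x)) * s := by rw [hux]
    _ = (s : G)⁻¹ * x * s := by group

theorem Hyp.chain_large (h : Hyp p d (P : Subgroup G)) (hmin : ∀ q : ℕ, q.Prime → q ∣ Nat.card G → p ≤ q)
    {A : Set G} {g : G} (hc : Alperin.Chain P A g) : ∀ x ∈ A, p ^ d < orderOf x →
      ∃ u ∈ (P : Subgroup G), g⁻¹ * x * g = u⁻¹ * x * u := by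
  induction hc with
  | nil A => intro x _ _; exact ⟨1, one_mem _, by simp⟩
  | cons A Q n g ht hn hA hc ih =>
    intro x hx hxd
    obtain ⟨u, hu, hux⟩ := h.step hmin ht hn (hA hx) hxd
    have hx' : n⁻¹ * x * n ∈ Alperin.cimg n A := ⟨x, hx, rfl⟩
    have hord : orderOf (n⁻¹ * x * n) = orderOf x := by
      have : n⁻¹ * x * n = MulAut.conj n⁻¹ x := by simp
      rw [this]
      exact MulEquiv.orderOf_eq _ _
    obtain ⟨v, hv, hvx⟩ := ih _ hx' (by rw [hord]; exact hxd)
    refine ⟨u * v, mul_mem hu hv, ?_⟩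
    calc (n * g)⁻¹ * x * (n * g) = g⁻¹ * (n⁻¹ * x * n) * g := by group
      _ = v⁻¹ * (n⁻¹ * x * n) * v := hvx
      _ = v⁻¹ * (u⁻¹ * x * u) * v := by rw [hux]
      _ = _ := by group

/-- Large normal subgroups of `P` are strongly closed. -/
theorem Hyp.strongly_closed (h : Hyp p d (P : Subgroup G))
    (hmin : ∀ q : ℕ, q.Prime → q ∣ Nat.card G → p ≤ q) {M : Subgroup G} (hMP : M ≤ (P : Subgroup G))
    (hn : (P : Subgroup G) ≤ normalizer (M : Set G)) (hMc : p ^ d ≤ Nat.card M) {x g : G} (hx : x ∈ M)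
    (hg : g⁻¹ * x * g ∈ (P : Subgroup G)) : g⁻¹ * x * g ∈ M := by
  rcases Nat.lt_or_ge (p ^ d) (orderOf x) with hlt | hle
  · have hc := Alperin.alperin_chain P {x} g (by
      rintro _ rfl
      exact hMP hx) (by
      rintro _ ⟨y, hy, rfl⟩
      rw [Set.mem_singleton_iff] at hy
      subst hy
      exact hg)
    obtain ⟨u, hu, hux⟩ := h.chain_large hmin hc x rfl hlt
    rw [hux]
    have := (mem_normalizer_iff.1 (hn (inv_mem hu)) x).1 hx
    simpa using this
  · obtain ⟨E, hxE, hEM, hEc⟩ := exists_between (k := d) (P.2.to_le hMP) ((zpowers_le).2 hx)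
      (by rw [Nat.card_zpowers]; exact hle) hMc
    apply hEM
    apply h.sc E (hEM.trans hMP) (Or.inl hEc) g⁻¹
    refine ⟨?_, hg⟩
    have := conj_mem_map_conj (g := g⁻¹) (hxE (mem_zpowers x))
    simpa using this

/-- Fusion acts trivially modulo subgroups of index `p`. -/
theorem Hyp.chain_mem (h : Hyp p d (P : Subgroup G)) (hmin : ∀ q : ℕ, q.Prime → q ∣ Nat.card G → p ≤ q)
    {M : Subgroup G} (hMP : M ≤ (P : Subgroup G)) (hMi : M.relIndex (P : Subgroup G) = p)
    {A : Set G} {g : G} (hc : Alperin.Chain P A g) : ∀ x ∈ A, x⁻¹ * (g⁻¹ * x * g) ∈ M := by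
  have hp : p.Prime := Fact.out
  have hn : (P : Subgroup G) ≤ normalizer (M : Set G) := le_normalizer_of_relIndex P.2 hMP hMi
  have hMc : p ^ d ≤ Nat.card M := by
    have h4 : Nat.card M * M.relIndex (P : Subgroup G) = Nat.card P := by
      have := Subgroup.relIndex_mul_relIndex ⊥ M (P : Subgroup G) bot_le hMP
      rwa [Subgroup.relIndex_bot_left, Subgroup.relIndex_bot_left] at this
    rw [hMi] at h4
    have h5 := h.lt
    have h6 : Nat.card ↥(P : Subgroup G) = Nat.card P := rfl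
    rw [h6, ← h4] at h5
    obtain ⟨j, hj⟩ := (P.2.to_le hMP).exists_card_eq
    rw [hj] at h5 ⊢
    rw [← pow_succ] at h5
    have := (Nat.pow_lt_pow_iff_right hp.one_lt).1 h5
    exact Nat.pow_le_pow_right hp.pos (by omega)
  induction hc with
  | nil A => intro x _; simp
  | cons A Q n g ht hnn hA hc ih =>
    intro x hx
    have hx' : n⁻¹ * x * n ∈ Alperin.cimg n A := ⟨x, hx, rfl⟩
    have h1 := ih _ hx'
    have h2 : x⁻¹ * ((n * g)⁻¹ * x * (n * g)) =
        (x⁻¹ * (n⁻¹ * x * n)) * ((n⁻¹ * x * n)⁻¹ * (g⁻¹ * (n⁻¹ * x * n) * g)) := by group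
    rw [h2]
    refine M.mul_mem ?_ h1
    set D := (P : Subgroup G) ⊓ (Q : Subgroup G) with hD
    have hxD : x ∈ D := hA hx
    have hconjD : ∀ y ∈ D, n⁻¹ * y * n ∈ D := fun y hy => (mem_normalizer_iff''.1 hnn y).1 hy
    have hconjD' : ∀ y ∈ D, n * y * n⁻¹ ∈ D := fun y hy => (mem_normalizer_iff.1 hnn y).1 hy
    by_cases hDM : D ≤ M
    · exact M.mul_mem (M.inv_mem (hDM hxD)) (hDM (hconjD x hxD))
    -- `L = D ⊓ M`
    have hDP : D ≤ (P : Subgroup G) := inf_le_left
    have hLi : (D ⊓ M).relIndex D = p := by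
      rw [inf_relIndex_left]
      have h3 : M.relIndex D ∣ p := by
        rw [← hMi]
        have hnorm : (M.subgroupOf (P : Subgroup G)).Normal := by
          rwa [normal_subgroupOf_iff_le_normalizer hMP]
        rw [← relIndex_subgroupOf hDP]
        exact relIndex_dvd_index_of_normal _ _
      rcases (Nat.dvd_prime hp).1 h3 with h4 | h4
      · exact absurd (relIndex_eq_one.1 h4) hDM
      · exact h4
    have hDL : D ≤ normalizer ((D ⊓ M : Subgroup G) : Set G) :=
      le_normalizer_of_relIndex (P.2.to_le hDP) inf_le_left hLi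
    have hnL : n⁻¹ ∈ normalizer ((D ⊓ M : Subgroup G) : Set G) := by
      rw [mem_normalizer_iff_map_conj]
      apply map_conj_eq_of_le
      rintro _ ⟨y, ⟨hy1, hy2⟩, rfl⟩
      have e : (MulAut.conj n⁻¹).toMonoidHom y = n⁻¹ * y * n := by simp
      rw [e]
      exact ⟨hconjD y hy1, h.strongly_closed hmin hMP hn hMc hy2 (hDP (hconjD y hy1))⟩
    have hnD : n⁻¹ ∈ normalizer (D : Set G) := inv_mem hnn
    have h5 := conj_inv_mul_mem hmin inf_le_left hDL hLi hnD hnL hxD
    rw [inv_inv] at h5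
    exact h5.2

theorem Hyp.commutator_inf_le (h : Hyp p d (P : Subgroup G))
    (hmin : ∀ q : ℕ, q.Prime → q ∣ Nat.card G → p ≤ q)
    {M : Subgroup G} (hMP : M ≤ (P : Subgroup G)) (hMi : M.relIndex (P : Subgroup G) = p) :
    commutator G ⊓ (P : Subgroup G) ≤ M := by
  rw [commutator_inf_eq_focalSubgroup, focalSubgroup_def, closure_le]
  rintro z ⟨hz, x, hx, u, rfl⟩
  have h1 : u * x⁻¹ * u⁻¹ ∈ (P : Subgroup G) := by
    have : x⁻¹ * ⁅x, u⁆ = u * x⁻¹ * u⁻¹ := by rw [commutatorElement_def]; group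
    rw [← this]
    exact mul_mem (inv_mem hx) hz
  have hc := Alperin.alperin_chain P {x⁻¹} u⁻¹ (by
    rintro _ rfl
    exact inv_mem hx) (by
    rintro _ ⟨y, hy, rfl⟩
    rw [Set.mem_singleton_iff] at hy
    subst hy
    show u⁻¹⁻¹ * x⁻¹ * u⁻¹ ∈ (P : Subgroup G)
    rw [inv_inv]
    exact h1)
  have h2 := h.chain_mem hmin hMP hMi hc x⁻¹ rfl
  rw [commutatorElement_def]
  simpa [mul_assoc] using h2

theorem Hyp.commutator_inf_le_frattini (h : Hyp p d (P : Subgroup G))
    (hmin : ∀ q : ℕ, q.Prime → q ∣ Nat.card G → p ≤ q) :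
    commutator G ⊓ (P : Subgroup G) ≤ (frattini ↥(P : Subgroup G)).map (P : Subgroup G).subtype := by
  intro x hx
  refine ⟨⟨x, hx.2⟩, ?_, rfl⟩
  rw [SetLike.mem_coe, frattini, Order.radical, Subgroup.mem_iInf]
  intro K
  rw [Subgroup.mem_iInf]
  intro hK
  have hK' : IsCoatom K := hK
  have hKP : K.map (P : Subgroup G).subtype ≤ (P : Subgroup G) := map_subtype_le K
  have hKs : (K.map (P : Subgroup G).subtype).subgroupOf (P : Subgroup G) = K :=
    comap_map_eq_self_of_injective (P : Subgroup G).subtype_injective K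
  have hne : K.map (P : Subgroup G).subtype ≠ (P : Subgroup G) := by
    intro h
    apply hK'.1
    rw [← hKs, h, subgroupOf_self]
  obtain ⟨M, hKM, hMP, hMi⟩ := exists_index_p_ge P.2 hKP hne
  have h1 : K ≤ M.subgroupOf (P : Subgroup G) := by
    rw [← hKs]
    exact comap_mono hKM
  have h2 : M.subgroupOf (P : Subgroup G) ≠ ⊤ := by
    intro h
    rw [relIndex, h, index_top] at hMi
    exact (Fact.out : p.Prime).one_lt.ne hMi
  have h3 : K = M.subgroupOf (P : Subgroup G) := by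
    rcases lt_or_eq_of_le h1 with h4 | h4
    · exact absurd (hK'.2 _ h4) h2
    · exact h4
  rw [h3, mem_subgroupOf]
  exact h.commutator_inf_le hmin hMP hMi hx

theorem Hyp.hasNPC (h : Hyp p d (P : Subgroup G))
    (hmin : ∀ q : ℕ, q.Prime → q ∣ Nat.card G → p ≤ q) : Cfsg.HasNormalPComplement p G := by
  have h1 : Cfsg.pResidual p G ⊓ (P : Subgroup G) ≤ commutator G ⊓ (P : Subgroup G) := by
    rintro x ⟨hx1, hx2⟩
    refine ⟨?_, hx2⟩
    set f := QuotientGroup.mk' (commutator G) with hf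
    have h2 : f x ∈ Cfsg.pResidual p (G ⧸ commutator G) := by
      rw [← Transfer.pResidual_map_of_surjective f (QuotientGroup.mk'_surjective _)]
      exact ⟨x, hx1, rfl⟩
    have hcomm : IsMulCommutative (G ⧸ commutator G) :=
      Normal.quotient_commutative_iff_commutator_le.mpr le_rfl
    have h3 := Transfer.coprime_of_mem_pResidual_of_isMulCommutative hcomm h2
    obtain ⟨k, hk⟩ := P.2.exists_card_eq
    have h4 : orderOf (f x) ∣ p ^ k := by
      refine (orderOf_map_dvd f x).trans ?_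
      rw [← hk]
      have := orderOf_dvd_natCard (⟨x, hx2⟩ : ↥(P : Subgroup G))
      rwa [orderOf_mk] at this
    have h5 : f x = 1 := orderOf_eq_one_iff.1
      (Nat.eq_one_of_dvd_coprimes (Nat.Coprime.pow_right k h3) dvd_rfl h4)
    rwa [← MonoidHom.mem_ker, hf, QuotientGroup.ker_mk'] at h5
  have h2 := Transfer.hasNPC_of_inf_le_frattini P (Cfsg.pResidual p G)
    (h1.trans (h.commutator_inf_le_frattini hmin))
  obtain ⟨k, hk⟩ := Transfer.index_pResidual_eq_pow (p := p) (G := G)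
  exact Transfer.HasNPC.of_normal_index_pow hk h2

end Fusion

end Cfsg.Agent.H50.HSub
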