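import Cfsg.Agent.H50.SSolv
import Cfsg.Agent.H50.HSub
import Cfsg.Agent.H50.MulSet

/-!
Supersolvability from `ℋ`-subgroups of a fixed order (S3032).  (helper50)
-/

set_option autoImplicit false
open scoped commutatorElement

namespace Cfsg.Agent.H50.SSolv

open Subgroup

universe u

section Core

variable {G : Type*} [Group G] [Finite G]

/-- `centralizes_of_maximal` without the assumption on the smallest prime. -/
theorem centralizes_of_sections {p r : ℕ} [Fact p.Prime] [Fact r.Prime] (hrp : r ≠ p)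
    {Q : Subgroup G} (hQ : IsPGroup p ↥Q) {n : G} (hr : IsPGroup r ↥(zpowers n))
    (hM : ∀ M ≤ Q, M.relIndex Q = p → n ∈ normalizer (M : Set G))
    (hZ : ∀ M ≤ Q, M.relIndex Q = p → ∀ x ∈ Q, ∀ a ∈ zpowers n, x⁻¹ * (a * x * a⁻¹) ∈ M) :
    ∀ x ∈ Q, n * x = x * n := by
  have hp : p.Prime := Fact.out
  have hr' : r.Prime := Fact.out
  set C := Q ⊓ centralizer ({n} : Set G) with hC
  by_cases hCQ : C = Q
  · intro x hx
    rw [← hCQ] at hx
    exact (mem_centralizer_singleton_iff.1 hx.2).symm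
  exfalso
  obtain ⟨M, hCM, hMQ, hMi⟩ := exists_index_p_ge hQ inf_le_left hCQ
  have hnM := hM M hMQ hMi
  have hne : M ≠ Q := by
    intro h
    rw [h, relIndex_self] at hMi
    exact hp.one_lt.ne hMi
  apply hne
  apply le_antisymm hMQ
  intro x hx
  obtain ⟨y, hy1, hy2⟩ := SigF.exists_fixed_coset (p := r) (A := zpowers n) (D := M) hr
    (by
      intro hd
      obtain ⟨k, hk⟩ := (hQ.to_le hMQ).exists_card_eq
      rw [hk] at hd
      exact hrp ((Nat.prime_dvd_prime_iff_eq hr' hp).1 (hr'.dvd_of_dvd_pow hd)))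
    (by rwa [zpowers_le]) (x := x) (fun a ha => hZ M hMQ hMi x hx a ha)
  have hyQ : y ∈ Q := by
    have := Q.mul_mem hx (hMQ hy1)
    simpa using this
  have hyC : y ∈ M := hCM ⟨hyQ, mem_centralizer_singleton_iff.2 (hy2 n (mem_zpowers n)).symm⟩
  have := M.mul_mem hyC (M.inv_mem hy1)
  simpa using this

theorem centralizes_core {p r d : ℕ} [Fact p.Prime] [Fact r.Prime] (hrp : r ≠ p) {Q : Subgroup G}
    (hQp : IsPGroup p ↥Q) (hd : 1 ≤ d) (hQ : p ^ d < Nat.card Q) {n : G} (hr : IsPGroup r ↥(zpowers n))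
    (𝒩 : Subgroup G → Prop) (hnQ : n ∈ normalizer (Q : Set G)) (hN : ∀ X, 𝒩 X → n ∈ normalizer (X : Set G))
    (hE : ∀ E ≤ Q, (Nat.card E = p ^ d ∨ (p = 2 ∧ d = 1 ∧ Nat.card E = 4)) → 𝒩 E)
    (hsup : ∀ X Y, 𝒩 X → 𝒩 Y → 𝒩 (X ⊔ Y))
    (hcyc' : ∀ X ≤ Q, IsCyclic ↥X → 𝒩 X → ∀ M ≤ X, 𝒩 M)
    (hZ : ∀ M X : Subgroup G, M ≤ X → X ≤ Q → M.relIndex X = p → 𝒩 M → 𝒩 X →
      ∀ x ∈ X, ∀ a ∈ zpowers n, x⁻¹ * (a * x * a⁻¹) ∈ M) : ∀ x ∈ Q, n * x = x * n := by
  have hp : p.Prime := Fact.out
  -- elements of a cyclic `E`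
  have hcyc : ∀ E : Subgroup G, E ≤ Q → (Nat.card E = p ^ d ∨ (p = 2 ∧ d = 1 ∧ Nat.card E = 4)) →
      IsCyclic ↥E → ∀ x ∈ E, n * x = x * n := by
    intro E hEQ hEc hEcy
    have h1 := hE E hEQ hEc
    exact centralizes_of_sections hrp (hQp.to_le hEQ) hr (fun M hM _ => hN _ (hcyc' E hEQ hEcy h1 M hM))
      (fun M hM hMi x hx a ha => hZ M E hM hEQ hMi (hcyc' E hEQ hEcy h1 M hM) h1 x hx a ha)
  -- elements of order at most `p ^ d`
  have hsmall : ∀ x ∈ Q, orderOf x ≤ p ^ d → n * x = x * n := by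
    intro x hx hxd
    obtain ⟨E, hxE, hEQ, hEc⟩ := exists_between (k := d) hQp ((zpowers_le).2 hx)
      (by rw [Nat.card_zpowers]; exact hxd) hQ.le
    have hxE' : x ∈ E := hxE (mem_zpowers x)
    by_cases hEcyc : IsCyclic ↥E
    · exact hcyc E hEQ (Or.inl hEc) hEcyc x hxE'
    -- a subgroup `Q₂` of order `p ^ (d + 1)` above `E`
    obtain ⟨m, hm⟩ := hQp.exists_card_eq
    have hdm : d + 1 ≤ m := by
      rw [hm] at hQ
      have := (Nat.pow_lt_pow_iff_right hp.one_lt).1 hQ
      omega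
    obtain ⟨Q₂, hEQ₂, hQ₂Q, hQ₂c⟩ := exists_between (k := d + 1) hQp hEQ
      (by rw [hEc]; exact Nat.pow_le_pow_right hp.pos (by omega))
      (by rw [hm]; exact Nat.pow_le_pow_right hp.pos hdm)
    have hQ₂p := hQp.to_le hQ₂Q
    have hlt : E ≠ Q₂ := by
      intro he
      rw [he, hQ₂c] at hEc
      exact absurd ((Nat.pow_right_injective hp.two_le) hEc) (by omega)
    obtain ⟨y, hy, hyE⟩ : ∃ y ∈ Q₂, y ∉ E := by
      by_contra hcon
      push Not at hcon
      exact hlt (le_antisymm hEQ₂ hcon)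
    have hyord : orderOf y ≤ p ^ d := by
      by_contra hcon
      push Not at hcon
      have h1 : zpowers y ≤ Q₂ := (zpowers_le).2 hy
      have h2 : Nat.card (zpowers y) ∣ p ^ (d + 1) := hQ₂c ▸ card_dvd_of_le h1
      obtain ⟨j, hj, hj'⟩ := (Nat.dvd_prime_pow hp).1 h2
      rw [Nat.card_zpowers] at hj'
      rw [hj'] at hcon
      have hj2 : d < j := (Nat.pow_lt_pow_iff_right hp.one_lt).1 hcon
      have hj3 : j = d + 1 := by omega
      have h3 : zpowers y = Q₂ := Subgroup.eq_of_le_of_card_ge h1 (by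
        rw [Nat.card_zpowers, hj', hj3, hQ₂c])
      apply hEcyc
      have : IsCyclic ↥Q₂ := by rw [← h3]; infer_instance
      exact isCyclic_of_injective (inclusion hEQ₂) (inclusion_injective hEQ₂)
    obtain ⟨E', hyE', hE'Q₂, hE'c⟩ := exists_between (k := d) hQ₂p ((zpowers_le).2 hy)
      (by rw [Nat.card_zpowers]; exact hyord) (by rw [hQ₂c]; exact Nat.pow_le_pow_right hp.pos (by omega))
    have hnE := hE E hEQ (Or.inl hEc)
    have hnE' := hE E' (hE'Q₂.trans hQ₂Q) (Or.inl hE'c)
    have hsup' : E ⊔ E' = Q₂ := by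
      have h1 : E ⊔ E' ≤ Q₂ := sup_le hEQ₂ hE'Q₂
      have h2 : Nat.card (E ⊔ E' : Subgroup G) ∣ p ^ (d + 1) := hQ₂c ▸ card_dvd_of_le h1
      obtain ⟨j, hj, hj'⟩ := (Nat.dvd_prime_pow hp).1 h2
      have h3 : Nat.card E < Nat.card (E ⊔ E' : Subgroup G) := by
        by_contra hcon
        have h4 : E = E ⊔ E' := Subgroup.eq_of_le_of_card_ge le_sup_left (not_lt.1 hcon)
        apply hyE
        rw [h4]
        exact (le_sup_right : E' ≤ E ⊔ E') (hyE' (mem_zpowers y))
      rw [hEc, hj'] at h3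
      have h4 : d < j := (Nat.pow_lt_pow_iff_right hp.one_lt).1 h3
      apply Subgroup.eq_of_le_of_card_ge h1
      rw [hQ₂c, hj']
      exact Nat.pow_le_pow_right hp.pos (by omega)
    have hnQ₂ : 𝒩 Q₂ := by
      rw [← hsup']
      exact hsup _ _ hnE hnE'
    have hMN : ∀ M ≤ Q₂, M.relIndex Q₂ = p → 𝒩 M := by
      intro M hMQ₂ hMi
      have hMc : Nat.card M = p ^ d := by
        have h4 : Nat.card M * M.relIndex Q₂ = Nat.card Q₂ := by
          have := Subgroup.relIndex_mul_relIndex ⊥ M Q₂ bot_le hMQ₂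
          rwa [Subgroup.relIndex_bot_left, Subgroup.relIndex_bot_left] at this
        rw [hMi, hQ₂c, pow_succ] at h4
        exact Nat.eq_of_mul_eq_mul_right hp.pos h4
      exact hE M (hMQ₂.trans hQ₂Q) (Or.inl hMc)
    exact centralizes_of_sections hrp hQ₂p hr (fun M hM hMi => hN _ (hMN M hM hMi))
      (fun M hM hMi x hx a ha => hZ M Q₂ hM hQ₂Q hMi (hMN M hM hMi) hnQ₂ x hx a ha) x (hEQ₂ hxE')
  -- reduce to small elements
  have hcop : (Nat.card (zpowers n)).Coprime p := by
    obtain ⟨k, hk⟩ := hr.exists_card_eq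
    rw [hk]
    exact Nat.Coprime.pow_left k ((Nat.coprime_primes Fact.out hp).2 hrp)
  have hzn : zpowers n ≤ normalizer (Q : Set G) := zpowers_le.2 hnQ
  have hext : ∀ x : G, n * x = x * n → ∀ a ∈ zpowers n, a * x = x * a := by
    intro x hx a ha
    obtain ⟨k, rfl⟩ := mem_zpowers_iff.1 ha
    exact ((show Commute n x from hx).zpow_left k).eq
  have key : zpowers n ≤ centralizer (Q : Set G) := by
    by_cases hp2 : p = 2
    · subst hp2
      apply le_centralizer_of_omega2 (zpowers n) hcop _ Q rfl hQp hzn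
      intro x hx hx4
      apply hext
      have hord : orderOf x ∣ 2 ^ 2 := orderOf_dvd_of_pow_eq_one (by simpa using hx4)
      obtain ⟨j, hj, hj'⟩ := (Nat.dvd_prime_pow hp).1 hord
      by_cases hjd : j ≤ d
      · apply hsmall x hx
        rw [hj']
        exact Nat.pow_le_pow_right (by norm_num) hjd
      · have hd1 : d = 1 := by omega
        have hj2 : j = 2 := by omega
        apply hcyc (zpowers x) ((zpowers_le).2 hx) (Or.inr ⟨rfl, hd1, by
          rw [Nat.card_zpowers, hj', hj2]; norm_num⟩) inferInstance x (mem_zpowers x)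
    · apply BG.le_centralizer_of_omega1 hp2 (zpowers n) hcop _ Q rfl hQp hzn
      intro x hx hxp
      apply hext
      apply hsmall x hx
      calc orderOf x ≤ p := Nat.le_of_dvd hp.pos (orderOf_dvd_of_pow_eq_one hxp)
        _ = p ^ 1 := (pow_one p).symm
        _ ≤ p ^ d := Nat.pow_le_pow_right hp.pos hd
  intro x hx
  exact (mem_centralizer_iff.1 (key (mem_zpowers n)) x hx).symm

end Core

/-- A normal subgroup of a cyclic normal subgroup is normal. -/
theorem normal_of_cyclic {G : Type*} [Group G] [Finite G] {X M : Subgroup G} (hX : X.Normal)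
    (hc : IsCyclic ↥X) (hMX : M ≤ X) : M.Normal := by
  rw [← normalizer_eq_top_iff, eq_top_iff]
  intro g _
  rw [mem_normalizer_iff_map_conj]
  have hXg : X.map (MulAut.conj g).toMonoidHom = X := by
    rw [← mem_normalizer_iff_map_conj, normalizer_eq_top]; trivial
  have h1 : M.map (MulAut.conj g).toMonoidHom ≤ X := by
    rw [← hXg]
    exact map_mono hMX
  have h2 : (M.map (MulAut.conj g).toMonoidHom).subgroupOf X = M.subgroupOf X := by
    apply eq_of_card_eq_of_cyclic
    rw [Nat.card_congr (subgroupOfEquivOfLe h1).toEquiv, Nat.card_congr (subgroupOfEquivOfLe hMX).toEquiv,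
      card_map_conj]
  have h3 := congrArg (Subgroup.map X.subtype) h2
  rwa [subgroupOf_map_subtype, subgroupOf_map_subtype, inf_eq_left.2 h1, inf_eq_left.2 hMX] at h3

/-- If all subgroups of order `p ^ d` (and 4 if `p ^ d = 2`) of the normal `p`-subgroup `P` are normal in `G`,
`1 ≤ d`, `p ^ d < |P|`, and `G / P` is supersolvable, then `G` is supersolvable. -/
theorem of_normal_subgroups {G : Type u} [Group G] [Finite G] {p d : ℕ} [Fact p.Prime] (P : Subgroup G)
    [P.Normal] (hP : IsPGroup p ↥P) (hd : 1 ≤ d) (hPd : p ^ d < Nat.card P)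
    (hE : ∀ E ≤ P, (Nat.card E = p ^ d ∨ (p = 2 ∧ d = 1 ∧ Nat.card E = 4)) → E.Normal)
    (hss : Cfsg.IsSupersolvable (G ⧸ P)) : Cfsg.IsSupersolvable G := by
  refine of_core _ rfl p P (actCore p P) hP ?_ (commutator_le_actCore p P) (pow_mem_actCore p P) hss
  intro g hg hcop
  refine mem_of_primePow (p := p) (N := actCore p P) ?_ _ g rfl hg hcop
  intro r hr hrp n hn hnr
  have : Fact r.Prime := ⟨hr⟩
  rw [mem_centralizer_iff]
  intro x hx
  symm
  refine centralizes_core hrp hP hd hPd hnr (fun X => X.Normal) (by rw [normalizer_eq_top]; trivial)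
    (fun X hX => by rw [@normalizer_eq_top _ _ X hX]; trivial) hE ?_ ?_ ?_ x hx
  · intro X Y hX hY
    infer_instance
  · intro X _ hXc hX M hM
    exact normal_of_cyclic hX hXc hM
  · intro M X hMX hXP hi hM hX y hy a ha
    have ha' : a ∈ actCore p P := (zpowers_le.2 hn) ha
    exact ha' M X hM hX hMX hXP hi y hy

/-- Hypothesis of S3032 for the subgroup `E`. -/
def HypE {G : Type*} [Group G] (E : Subgroup G) : Prop :=
  ∀ (p : ℕ), p.Prime → ∀ P : Subgroup G, P ≤ E → IsPGroup p P → ¬ p ∣ P.relIndex E → ¬ IsCyclic ↥P →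
      ∃ D : Subgroup G, D ≤ P ∧ 1 < Nat.card D ∧ Nat.card D < Nat.card P ∧
        ∀ F : Subgroup G, F ≤ P → (Nat.card F = Nat.card D ∨ (Nat.card D = 2 ∧ Nat.card F = 4)) →
          HSub.IsHSub F

/-- The smallest prime divisor: normal complement. -/
theorem hasNPC_of_hypE {G : Type*} [Group G] [Finite G] {E : Subgroup G} (h : HypE E) {p : ℕ} [Fact p.Prime]
    (hp : p = (Nat.card E).minFac)  : Cfsg.HasNormalPComplement p ↥E := by
  have hpp : p.Prime := Fact.out
  obtain ⟨S⟩ : Nonempty (Sylow p ↥E) := inferInstance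
  by_cases hc : IsCyclic ↥(S : Subgroup ↥E)
  · exact ⟨S, _, inferInstance, IsCyclic.isComplement' hp.symm hc⟩
  have hmin : ∀ q : ℕ, q.Prime → q ∣ Nat.card E → p ≤ q := fun q hq hqd => by
    rw [hp]; exact Nat.minFac_le_of_dvd hq.two_le hqd
  set P := (S : Subgroup ↥E).map E.subtype with hPdef
  have hPE : P ≤ E := map_subtype_le _
  have hPp : IsPGroup p ↥P := S.2.map _
  have hPs : P.subgroupOf E = (S : Subgroup ↥E) := comap_map_eq_self_of_injective E.subtype_injective _
  have hPcard : Nat.card P = Nat.card (S : Subgroup ↥E) := card_map_of_injective E.subtype_injective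
  have hPi : ¬ p ∣ P.relIndex E := by
    rw [relIndex, hPs]
    exact S.not_dvd_index
  have hPc : ¬ IsCyclic ↥P := by
    intro h1
    apply hc
    exact isCyclic_of_injective ((S : Subgroup ↥E).equivMapOfInjective E.subtype E.subtype_injective).toMonoidHom
      (MulEquiv.injective _)
  obtain ⟨D, hDP, hD1, hD2, hF⟩ := h p hpp P hPE hPp hPi hPc
  obtain ⟨d, hd⟩ := (hPp.to_le hDP).exists_card_eq
  have hd1 : 1 ≤ d := by
    by_contra hcon
    have : d = 0 := by omega
    rw [hd, this, pow_zero] at hD1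
    exact lt_irrefl _ hD1
  have hyp : HSub.Hyp p d (S : Subgroup ↥E) := by
    refine ⟨S.2, hd1, by rw [← hd, ← hPcard]; exact hD2, ?_⟩
    intro F hFS hFc g
    have hFP : F.map E.subtype ≤ P := map_mono hFS
    have hFcard : Nat.card (F.map E.subtype) = Nat.card F := card_map_of_injective E.subtype_injective
    have hF' : Nat.card (F.map E.subtype) = Nat.card D ∨ (Nat.card D = 2 ∧ Nat.card (F.map E.subtype) = 4) := by
      rw [hFcard]
      rcases hFc with h1 | ⟨h1, h2, h3⟩
      · exact Or.inl (by rw [h1, hd])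
      · exact Or.inr ⟨by rw [hd, h2, pow_one, h1], h3⟩
    have h1 := (hF _ hFP hF').inf_le hPp hFP (g : G)
    rintro x ⟨⟨y, hy, hyx⟩, hxS⟩
    have h2 : (x : G) ∈ (F.map E.subtype).map (MulAut.conj (g : G)).toMonoidHom ⊓ P := by
      refine ⟨⟨(y : G), ⟨y, hy, rfl⟩, ?_⟩, ⟨x, hxS, rfl⟩⟩
      rw [← hyx]
      simp [MulAut.conj_apply]
    obtain ⟨z, hz, hzx⟩ := h1 h2
    have : z = x := Subtype.ext hzx
    rw [← this]; exact hz
  exact hyp.hasNPC hmin

theorem main (n : ℕ) : ∀ {G : Type u} [Group G] [Finite G] (E : Subgroup G) [E.Normal], Nat.card E = n →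
    Cfsg.IsSupersolvable (G ⧸ E) → HypE E → Cfsg.IsSupersolvable G := by
  induction n using Nat.strong_induction_on with
  | _ n ih =>
  intro G _ _ E _ hn hss h
  by_cases hE1 : Nat.card E = 1
  · have : E = ⊥ := card_eq_one.1 hE1
    subst this
    exact Supersolvable.of_mulEquiv QuotientGroup.quotientBot hss
  set p := (Nat.card E).minFac with hpdef
  have hpp : p.Prime := Nat.minFac_prime hE1
  have : Fact p.Prime := ⟨hpp⟩
  have hnpc := hasNPC_of_hypE h (p := p) rfl
  -- the complement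
  set K := (Cfsg.pResidual p ↥E).map E.subtype with hK
  have hKn : K.Normal := by rw [hK]; infer_instance
  have hKE : K ≤ E := map_subtype_le _
  have hKc : (Nat.card K).Coprime p := by
    rw [hK, card_map_of_injective E.subtype_injective]
    exact Transfer.hasNPC_iff_card_pResidual.1 hnpc
  obtain ⟨S⟩ : Nonempty (Sylow p ↥E) := inferInstance
  set P := (S : Subgroup ↥E).map E.subtype with hPdef
  have hPE : P ≤ E := map_subtype_le _
  have hPp : IsPGroup p ↥P := S.2.map _
  have hPs : P.subgroupOf E = (S : Subgroup ↥E) := comap_map_eq_self_of_injective E.subtype_injective _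
  have hPi : ¬ p ∣ P.relIndex E := by
    rw [relIndex, hPs]
    exact S.not_dvd_index
  have hPK : P ⊔ K = E := by
    rw [hPdef, hK, ← Subgroup.map_sup, Transfer.sylow_sup_pResidual, ← MonoidHom.range_eq_map, range_subtype]
  have hPKi : P ⊓ K = ⊥ := by
    obtain ⟨k, hk⟩ := hPp.exists_card_eq
    exact (disjoint_of_coprime_natCard (by rw [hk]; exact (Nat.Coprime.pow_right k hKc).symm)).eq_bot
  have hPne : P ≠ ⊥ := by
    intro hb
    rw [hb, bot_sup_eq] at hPK
    have h1 : p ∣ Nat.card E := Nat.minFac_dvd _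
    rw [← hPK] at h1
    exact hpp.one_lt.ne' (Nat.eq_one_of_dvd_coprimes hKc h1 dvd_rfl)
  have hKlt : Nat.card K < n := by
    rw [← hn]
    by_contra hcon
    have h1 : K = E := Subgroup.eq_of_le_of_card_ge hKE (not_lt.1 hcon)
    apply hPne
    rw [eq_bot_iff, ← hPKi, h1]
    exact le_inf le_rfl hPE
  -- `K` inherits the hypothesis
  have hKrel : K.relIndex E = Nat.card P := by
    have h1 : Nat.card K * K.relIndex E = Nat.card E := by
      have := Subgroup.relIndex_mul_relIndex ⊥ K E bot_le hKE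
      rwa [Subgroup.relIndex_bot_left, Subgroup.relIndex_bot_left] at this
    have h2 := card_sup_of_eq_mul (H := P) (K := K) (mul_normal P K)
    rw [hPK, hPKi, card_bot, mul_one] at h2
    rw [h2, mul_comm] at h1
    exact Nat.eq_of_mul_eq_mul_right Nat.card_pos h1
  have hKhyp : HypE K := by
    intro q hq R hRK hRq hRi hRc
    have hqp : q ≠ p := by
      intro hqp
      have : Fact q.Prime := ⟨hq⟩
      -- then `R` is trivial
      obtain ⟨k, hk⟩ := hRq.exists_card_eq
      have h1 : Nat.card R ∣ Nat.card K := card_dvd_of_le hRK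
      rw [hk] at h1
      have h2 : q ^ k = 1 := by
        have h3 : (q ^ k).Coprime (Nat.card K) := by
          rw [hqp]
          exact (Nat.Coprime.pow_right k hKc).symm
        exact Nat.eq_one_of_dvd_coprimes h3 dvd_rfl h1
      apply hRc
      have : R = ⊥ := card_eq_one.1 (by rw [hk, h2])
      rw [this]; infer_instance
    refine h q hq R (hRK.trans hKE) hRq ?_ hRc
    rw [← relIndex_mul_relIndex R K E hRK hKE]
    intro hd
    rcases (Nat.Prime.dvd_mul hq).1 hd with h1 | h1
    · exact hRi h1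
    · rw [hKrel] at h1
      obtain ⟨k, hk⟩ := hPp.exists_card_eq
      rw [hk] at h1
      exact hqp ((Nat.prime_dvd_prime_iff_eq hq hpp).1 (hq.dvd_of_dvd_pow h1))
  refine ih _ hKlt K rfl ?_ hKhyp
  -- `G / K` is supersolvable
  set f := QuotientGroup.mk' K with hf
  have hfs : Function.Surjective f := QuotientGroup.mk'_surjective K
  have hfker : f.ker = K := QuotientGroup.ker_mk' K
  have hPE' : P.map f = E.map f := by
    rw [← hPK, Subgroup.map_sup]
    have : K.map f = ⊥ := by rw [Subgroup.map_eq_bot_iff, hfker]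
    rw [this, sup_bot_eq]
  have hEn' : (E.map f).Normal := Normal.map inferInstance f hfs
  have hPn' : (P.map f).Normal := by rw [hPE']; exact hEn'
  have hss' : Cfsg.IsSupersolvable ((G ⧸ K) ⧸ P.map f) := by
    have h1 := Supersolvable.of_mulEquiv (QuotientGroup.quotientQuotientEquivQuotient K E hKE).symm hss
    have e : ((G ⧸ K) ⧸ E.map (QuotientGroup.mk' K)) ≃* ((G ⧸ K) ⧸ P.map f) :=
      QuotientGroup.quotientMulEquivOfEq hPE'.symm
    exact Supersolvable.of_mulEquiv e h1
  have hinj : ∀ x ∈ P, f x = 1 → x = 1 := by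
    intro x hx hfx
    have h1 : x ∈ P ⊓ K := ⟨hx, by rw [← hfker]; exact hfx⟩
    rwa [hPKi, mem_bot] at h1
  have hcardmap : ∀ X ≤ P, Nat.card (X.map f) = Nat.card X := by
    intro X hX
    have h1 : Function.Injective (f.comp X.subtype) := by
      rw [injective_iff_map_eq_one]
      intro a ha
      exact Subtype.ext (hinj a (hX a.2) ha)
    have h2 : X.map f = (⊤ : Subgroup X).map (f.comp X.subtype) := by
      rw [← Subgroup.map_map, ← MonoidHom.range_eq_map, range_subtype]
    rw [h2, card_map_of_injective h1, card_top]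
  by_cases hPc : IsCyclic ↥P
  · apply Supersolvable.of_isCyclic_normal (P.map f) _ hss'
    exact isCyclic_of_surjective (f.subgroupMap P) (f.subgroupMap_surjective P)
  obtain ⟨D, hDP, hD1, hD2, hF⟩ := h p hpp P hPE hPp hPi hPc
  obtain ⟨d, hd⟩ := (hPp.to_le hDP).exists_card_eq
  have hd1 : 1 ≤ d := by
    by_contra hcon
    have : d = 0 := by omega
    rw [hd, this, pow_zero] at hD1
    exact lt_irrefl _ hD1
  -- Frattini
  have hfrat : normalizer (P : Set G) ⊔ E = ⊤ := Sylow.normalizer_sup_eq_top S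
  have hcov : (normalizer (P : Set G)).map f = ⊤ := by
    have h1 : E ≤ normalizer (P : Set G) ⊔ K := by
      rw [← hPK]
      exact sup_le_sup_right le_normalizer K
    have h2 : normalizer (P : Set G) ⊔ K = ⊤ := by
      rw [eq_top_iff, ← hfrat]
      exact sup_le le_sup_left h1
    have h3 := congrArg (Subgroup.map f) h2
    rw [Subgroup.map_sup, Subgroup.map_top_of_surjective f hfs] at h3
    have : K.map f = ⊥ := by rw [Subgroup.map_eq_bot_iff, hfker]
    rwa [this, sup_bot_eq] at h3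
  refine of_normal_subgroups (p := p) (d := d) (P.map f) (hPp.map f) hd1
    (by rw [hcardmap P le_rfl, ← hd]; exact hD2) ?_ hss'
  intro Fb hFbP hFbc
  set F := P ⊓ Fb.comap f with hFdef
  have hFmap : F.map f = Fb := by
    apply le_antisymm
    · rw [map_le_iff_le_comap]; exact inf_le_right
    · intro y hy
      obtain ⟨x, hx, rfl⟩ := hFbP hy
      exact ⟨x, ⟨hx, hy⟩, rfl⟩
  have hFP : F ≤ P := inf_le_left
  have hFcard : Nat.card F = Nat.card Fb := by rw [← hFmap, hcardmap F hFP]
  have hF' : Nat.card F = Nat.card D ∨ (Nat.card D = 2 ∧ Nat.card F = 4) := by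
    rw [hFcard]
    rcases hFbc with h1 | ⟨h1, h2, h3⟩
    · exact Or.inl (by rw [h1, hd])
    · exact Or.inr ⟨by rw [hd, h2, pow_one, h1], h3⟩
  have hFh := hF F hFP hF'
  have hPF := hFh.le_normalizer hPp hFP
  have hNF : normalizer (P : Set G) ≤ normalizer (F : Set G) := by
    intro g hg
    rw [mem_normalizer_iff_map_conj]
    apply map_conj_eq_of_le
    refine le_trans (le_inf le_rfl ?_) (hFh g)
    refine le_trans ?_ hPF
    rw [← mem_normalizer_iff_map_conj.1 hg]
    exact map_mono hFP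
  rw [← normalizer_eq_top_iff, eq_top_iff, ← hcov, ← hFmap]
  exact (map_mono hNF).trans (le_normalizer_map f)

end Cfsg.Agent.H50.SSolv
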